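import Cfsg.Agent.H255.IF.Key

/-!
# Heisenberg groups from commutator relations (helper351)

* `HD Z X σ` : subgroups `X i` commuting with `Z`, `X i` commutes with `X j` for `j ≠ σ i`, and for `x ∈ X i`, `x ≠ 1`,
  the commutator map `X (σ i) → Z`, `y ↦ [x, y]` is onto;
* `HD.sp` : then `Q = Z ⊔ ⨆ X i` satisfies `Sp Z Z Q`;
* `HD.card` : `|Q| = |Z| ∏ |X i|`.
-/

set_option autoImplicit false

namespace Cfsg.Agent.H351.IF

open Subgroup Cfsg.Agent.H255.IFK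

/-- Heisenberg data. -/
structure HD {G : Type*} [Group G] (Z : Subgroup G) {ι : Type*} (X : ι → Subgroup G) (σ : ι → ι) : Prop where
  zz : ∀ a ∈ Z, ∀ b ∈ Z, a * b = b * a
  zx : ∀ i, ∀ z ∈ Z, ∀ x ∈ X i, x * z = z * x
  comm : ∀ i j, j ≠ σ i → ∀ x ∈ X i, ∀ y ∈ X j, x * y = y * x
  mem : ∀ i, ∀ x ∈ X i, ∀ y ∈ X (σ i), x * y * x⁻¹ * y⁻¹ ∈ Z
  surj : ∀ i, ∀ x ∈ X i, x ≠ 1 → ∀ z ∈ Z, ∃ y ∈ X (σ i), x * y * x⁻¹ * y⁻¹ = z
  inv : ∀ i, σ (σ i) = i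
  ne : ∃ z ∈ Z, z ≠ 1

variable {G : Type*} [Group G] {Z : Subgroup G} {ι : Type*} {X : ι → Subgroup G} {σ : ι → ι}

/-- the group -/
def HD.Q (_ : HD Z X σ) : Subgroup G := Z ⊔ ⨆ i, X i

variable (h : HD Z X σ)

include h

theorem HD.zQ : Z ≤ h.Q := le_sup_left

theorem HD.xQ (i : ι) : X i ≤ h.Q := (le_iSup X i).trans le_sup_right

theorem HD.Q_le {K : Subgroup G} (hZ : Z ≤ K) (hX : ∀ i, X i ≤ K) : h.Q ≤ K := sup_le hZ (iSup_le hX)

theorem HD.central : ∀ z ∈ Z, ∀ x ∈ h.Q, x * z = z * x := by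
  intro z hz x hx
  have h1 : h.Q ≤ centralizer ({z} : Set G) := by
    refine h.Q_le (fun a ha => ?_) (fun i a ha => ?_)
    · rw [mem_centralizer_singleton_iff]; exact h.zz a ha z hz
    · rw [mem_centralizer_singleton_iff]; exact h.zx i z hz a ha
  exact mem_centralizer_singleton_iff.1 (h1 hx)

theorem HD.cm_mul_left {g g' y : G} (hg : g ∈ h.Q) (hy : y ∈ h.Q) (hc : g' * y * g'⁻¹ * y⁻¹ ∈ Z) :
    g * g' * y * (g * g')⁻¹ * y⁻¹ = (g * y * g⁻¹ * y⁻¹) * (g' * y * g'⁻¹ * y⁻¹) := by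
  have h1 := h.central _ hc (y * g⁻¹ * y⁻¹) (mul_mem (mul_mem hy (inv_mem hg)) (inv_mem hy))
  calc g * g' * y * (g * g')⁻¹ * y⁻¹ = g * ((g' * y * g'⁻¹ * y⁻¹) * (y * g⁻¹ * y⁻¹)) := by group
    _ = g * ((y * g⁻¹ * y⁻¹) * (g' * y * g'⁻¹ * y⁻¹)) := by rw [h1]
    _ = _ := by group

theorem HD.cm_mul_right {g y y' : G} (hy : y ∈ h.Q) (hc : g * y' * g⁻¹ * y'⁻¹ ∈ Z) :
    g * (y * y') * g⁻¹ * (y * y')⁻¹ = (g * y * g⁻¹ * y⁻¹) * (g * y' * g⁻¹ * y'⁻¹) := by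
  have h1 := h.central _ hc y hy
  calc g * (y * y') * g⁻¹ * (y * y')⁻¹ = (g * y * g⁻¹ * y⁻¹) * (y * (g * y' * g⁻¹ * y'⁻¹)) * y⁻¹ := by group
    _ = (g * y * g⁻¹ * y⁻¹) * ((g * y' * g⁻¹ * y'⁻¹) * y) * y⁻¹ := by rw [h1]
    _ = _ := by group

/-- commutators of generators -/
theorem HD.cm_gen {i j : ι} {x y : G} (hx : x ∈ X i) (hy : y ∈ X j) : x * y * x⁻¹ * y⁻¹ ∈ Z := by
  by_cases hij : j = σ i
  · subst hij
    exact h.mem i x hx y hy
  · rw [h.comm i j hij x hx y hy, mul_inv_cancel_right, mul_inv_cancel]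
    exact one_mem _

theorem HD.comm_mem : ∀ x ∈ h.Q, ∀ y ∈ h.Q, x * y * x⁻¹ * y⁻¹ ∈ Z := by
  -- first `x` in a generating subgroup
  have key : ∀ (P : G → Prop), (∀ z ∈ Z, P z) → (∀ i, ∀ x ∈ X i, P x) →
      (∀ a ∈ h.Q, ∀ b ∈ h.Q, P a → P b → P (a * b)) → ∀ x ∈ h.Q, P x := by
    intro P h1 h2 h3
    let K : Set G := {x | x ∈ h.Q ∧ P x}
    have hsub : h.Q = closure ((Z : Set G) ∪ ⋃ i, (X i : Set G)) := by
      rw [Subgroup.closure_union, Subgroup.closure_eq, Subgroup.closure_iUnion]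
      simp only [Subgroup.closure_eq]
      rfl
    intro x hx
    have hx' := hx
    rw [hsub] at hx'
    refine (closure_induction'' (p := fun x _ => x ∈ h.Q ∧ P x) ?_ ?_ ⟨one_mem _, h1 1 (one_mem _)⟩ ?_ hx').2
    · rintro y (hy | hy)
      · exact ⟨h.zQ hy, h1 y hy⟩
      · obtain ⟨i, hi⟩ := Set.mem_iUnion.1 hy
        exact ⟨h.xQ i hi, h2 i y hi⟩
    · rintro y (hy | hy)
      · exact ⟨h.zQ (inv_mem hy), h1 _ (inv_mem hy)⟩
      · obtain ⟨i, hi⟩ := Set.mem_iUnion.1 hy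
        exact ⟨h.xQ i (inv_mem hi), h2 i _ (inv_mem hi)⟩
    · rintro a b - - ⟨ha, ha'⟩ ⟨hb, hb'⟩
      exact ⟨mul_mem ha hb, h3 a ha b hb ha' hb'⟩
  have hz : ∀ z ∈ Z, ∀ y ∈ h.Q, z * y * z⁻¹ * y⁻¹ = 1 := by
    intro z hz y hy
    rw [← h.central z hz y hy]; group
  have hz' : ∀ z ∈ Z, ∀ y ∈ h.Q, y * z * y⁻¹ * z⁻¹ = 1 := by
    intro z hz y hy
    rw [h.central z hz y hy]; group
  have s1 : ∀ i, ∀ x ∈ X i, ∀ y ∈ h.Q, x * y * x⁻¹ * y⁻¹ ∈ Z := by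
    intro i x hx
    refine key _ (fun z hzz => ?_) (fun j y hy => h.cm_gen hx hy) (fun a ha b _ pa pb => ?_)
    · rw [hz' z hzz x (h.xQ i hx)]; exact one_mem _
    · rw [h.cm_mul_right ha pb]; exact mul_mem pa pb
  intro x hx y hy
  refine key (fun x => x * y * x⁻¹ * y⁻¹ ∈ Z) (fun z hzz => ?_) (fun i x hx => s1 i x hx y hy)
    (fun a ha b _ pa pb => ?_) x hx
  · show z * y * z⁻¹ * y⁻¹ ∈ Z
    rw [hz z hzz y hy]; exact one_mem _
  · show a * b * y * (a * b)⁻¹ * y⁻¹ ∈ Z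
    rw [h.cm_mul_left ha hy pb]; exact mul_mem pa pb

/-- induction over `Q` -/
theorem HD.ind {P : G → Prop} (h1 : ∀ z ∈ Z, P z) (h2 : ∀ i, ∀ x ∈ X i, P x)
    (h3 : ∀ a ∈ h.Q, ∀ b ∈ h.Q, P a → P b → P (a * b)) : ∀ x ∈ h.Q, P x := by
  have hsub : h.Q = closure ((Z : Set G) ∪ ⋃ i, (X i : Set G)) := by
    rw [Subgroup.closure_union, Subgroup.closure_eq, Subgroup.closure_iUnion]
    simp only [Subgroup.closure_eq]
    rfl
  intro x hx
  have hx' := hx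
  rw [hsub] at hx'
  refine (closure_induction'' (p := fun x _ => x ∈ h.Q ∧ P x) ?_ ?_ ⟨one_mem _, h1 1 (one_mem _)⟩ ?_ hx').2
  · rintro y (hy | hy)
    · exact ⟨h.zQ hy, h1 y hy⟩
    · obtain ⟨i, hi⟩ := Set.mem_iUnion.1 hy
      exact ⟨h.xQ i hi, h2 i y hi⟩
  · rintro y (hy | hy)
    · exact ⟨h.zQ (inv_mem hy), h1 _ (inv_mem hy)⟩
    · obtain ⟨i, hi⟩ := Set.mem_iUnion.1 hy
      exact ⟨h.xQ i (inv_mem hi), h2 i _ (inv_mem hi)⟩
  · rintro a b - - ⟨ha, ha'⟩ ⟨hb, hb'⟩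
    exact ⟨mul_mem ha hb, h3 a ha b hb ha' hb'⟩

omit h in
theorem zNormal {Z Q : Subgroup G} (hc : ∀ z ∈ Z, ∀ x ∈ Q, x * z = z * x) : (Z.subgroupOf Q).Normal := by
  constructor
  intro z hz g
  rw [mem_subgroupOf] at hz ⊢
  have h1 : ((g * z * g⁻¹ : Q) : G) = z := by
    show (g : G) * z * (g : G)⁻¹ = z
    rw [hc _ hz g g.2]; group
  rw [h1]; exact hz

/-- **Coordinates in `Q`.** -/
theorem HD.coord [Fintype ι] [DecidableEq ι] : ∃ Ψ : h.Q → (∀ i, X i),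
    (∀ q : h.Q, ∀ i, ∀ y ∈ X (σ i), (q : G) * y * (q : G)⁻¹ * y⁻¹ = (Ψ q i : G) * y * (Ψ q i : G)⁻¹ * y⁻¹) ∧
    (∀ q q' : h.Q, Ψ q = Ψ q' ↔ (q : G) * (q' : G)⁻¹ ∈ Z) ∧ Function.Surjective Ψ := by
  have hN := zNormal h.central
  set Z' := Z.subgroupOf h.Q with hZ'
  have hcomm : ∀ a b : h.Q, Commute (QuotientGroup.mk' Z' a) (QuotientGroup.mk' Z' b) := by
    intro a b
    show QuotientGroup.mk' Z' a * QuotientGroup.mk' Z' b = QuotientGroup.mk' Z' b * QuotientGroup.mk' Z' a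
    rw [← map_mul, ← map_mul]
    show ((a * b : h.Q) : h.Q ⧸ Z') = ((b * a : h.Q) : h.Q ⧸ Z')
    rw [QuotientGroup.eq, hZ', mem_subgroupOf]
    have h1 := h.comm_mem _ (inv_mem b.2) _ (inv_mem a.2)
    have h2 : (((a * b)⁻¹ * (b * a) : h.Q) : G) = (b : G)⁻¹ * (a : G)⁻¹ * ((b : G)⁻¹)⁻¹ * ((a : G)⁻¹)⁻¹ := by
      simp [mul_assoc]
    rw [h2]; exact h1
  let ϕ : ∀ i, X i →* h.Q ⧸ Z' := fun i => (QuotientGroup.mk' Z').comp (inclusion (h.xQ i))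
  let Φ : (∀ i, X i) →* h.Q ⧸ Z' := MonoidHom.noncommPiCoprod ϕ fun i j _ x y => hcomm _ _
  have hΦ : ∀ i (x : X i), Φ (Pi.mulSingle i x) = QuotientGroup.mk' Z' ⟨x, h.xQ i x.2⟩ := fun i x =>
    MonoidHom.noncommPiCoprod_mulSingle _ _ _
  have hsurj : ∀ q ∈ h.Q, ∀ hq : q ∈ h.Q, ∃ x, Φ x = QuotientGroup.mk' Z' ⟨q, hq⟩ := by
    refine h.ind (fun z hz hq => ⟨1, ?_⟩) (fun i x hx hq => ⟨Pi.mulSingle i ⟨x, hx⟩, hΦ i _⟩)
      (fun a ha b hb pa pb hq => ?_)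
    · rw [map_one]
      symm
      show ((⟨z, hq⟩ : h.Q) : h.Q ⧸ Z') = 1
      rw [QuotientGroup.eq_one_iff, hZ', mem_subgroupOf]
      exact hz
    · obtain ⟨x, hx⟩ := pa ha
      obtain ⟨y, hy⟩ := pb hb
      refine ⟨x * y, ?_⟩
      rw [map_mul, hx, hy, ← map_mul]
      rfl
  -- the commutator with an element of `X (σ i)`
  have hcm : ∀ q : h.Q, ∀ x : (∀ i, X i), Φ x = QuotientGroup.mk' Z' q → ∀ i, ∀ y ∈ X (σ i),
      (q : G) * y * (q : G)⁻¹ * y⁻¹ = (x i : G) * y * (x i : G)⁻¹ * y⁻¹ := by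
    intro q x hx i y hy
    have hyQ := h.xQ (σ i) hy
    let A : h.Q →* Z :=
      { toFun := fun q => ⟨(q : G) * y * (q : G)⁻¹ * y⁻¹, h.comm_mem _ q.2 _ hyQ⟩
        map_one' := Subtype.ext (by simp)
        map_mul' := fun a b => Subtype.ext (h.cm_mul_left a.2 hyQ (h.comm_mem _ b.2 _ hyQ)) }
    have hA : ∀ z ∈ Z', A z = 1 := by
      intro z hz
      rw [hZ', mem_subgroupOf] at hz
      apply Subtype.ext
      show (z : G) * y * (z : G)⁻¹ * y⁻¹ = 1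
      rw [← h.central z hz y hyQ]; group
    let A' : h.Q ⧸ Z' →* Z := QuotientGroup.lift Z' A hA
    let B : (∀ i, X i) →* Z :=
      { toFun := fun x => ⟨(x i : G) * y * (x i : G)⁻¹ * y⁻¹, h.comm_mem _ (h.xQ i (x i).2) _ hyQ⟩
        map_one' := Subtype.ext (by simp)
        map_mul' := fun a b => Subtype.ext (h.cm_mul_left (h.xQ i (a i).2) hyQ (h.comm_mem _ (h.xQ i (b i).2) _ hyQ)) }
    have hAB : A'.comp Φ = B := by
      apply MonoidHom.pi_ext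
      intro j a
      apply Subtype.ext
      show ((A' (Φ (Pi.mulSingle j a)) : Z) : G) = ((Pi.mulSingle j a : ∀ i, X i) i : G) * y *
        ((Pi.mulSingle j a : ∀ i, X i) i : G)⁻¹ * y⁻¹
      rw [hΦ]
      show (a : G) * y * (a : G)⁻¹ * y⁻¹ = _
      by_cases hij : i = j
      · subst hij
        rw [Pi.mulSingle_eq_same]
      · rw [Pi.mulSingle_eq_of_ne hij]
        have hne : σ i ≠ σ j := fun e => hij (by rw [← h.inv i, e, h.inv])
        rw [h.comm j (σ i) hne a a.2 y hy]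
        simp
    have h1 : A' (Φ x) = B x := DFunLike.congr_fun hAB x
    rw [hx] at h1
    exact congrArg Subtype.val h1
  choose f hf using fun q : h.Q => hsurj q q.2 q.2
  have hinj : Function.Injective Φ := by
    rw [injective_iff_map_eq_one]
    intro x hx
    obtain ⟨z, hz, hz1⟩ := h.ne
    funext i
    by_contra hne
    have hne' : (x i : G) ≠ 1 := fun e => hne (Subtype.ext e)
    obtain ⟨y, hy, e⟩ := h.surj i (x i) (x i).2 hne' z hz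
    have h1 := hcm 1 x (by rw [hx, map_one]) i y hy
    rw [e] at h1
    apply hz1
    rw [← h1]
    simp
  refine ⟨f, fun q i y hy => hcm q (f q) (hf q) i y hy, fun q q' => ?_, fun x => ?_⟩
  · have h1 : f q = f q' ↔ Φ (f q) = Φ (f q') := ⟨fun e => by rw [e], fun e => hinj e⟩
    rw [h1, hf, hf]
    show ((q : h.Q) : h.Q ⧸ Z') = ((q' : h.Q) : h.Q ⧸ Z') ↔ _
    rw [QuotientGroup.eq, hZ', mem_subgroupOf]
    have h2 : (((q : h.Q)⁻¹ * q' : h.Q) : G) = (q : G)⁻¹ * q' := rfl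
    rw [h2]
    constructor
    · intro e
      have h3 := h.central _ e _ q.2
      have h4 := inv_mem e
      have h5 : (q : G) * (q' : G)⁻¹ = ((q : G)⁻¹ * q')⁻¹ := by
        rw [eq_inv_iff_mul_eq_one]
        calc (q : G) * (q' : G)⁻¹ * ((q : G)⁻¹ * q') = (q : G) * ((q' : G)⁻¹ * ((q : G)⁻¹ * q')) := by group
          _ = (q : G) * (((q : G)⁻¹ * q') * (q' : G)⁻¹) := by
            rw [h.central _ e _ (inv_mem q'.2)]
          _ = 1 := by group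
      rw [h5]; exact h4
    · intro e
      have h5 : (q : G)⁻¹ * q' = ((q : G) * (q' : G)⁻¹)⁻¹ := by
        rw [eq_inv_iff_mul_eq_one]
        calc (q : G)⁻¹ * q' * ((q : G) * (q' : G)⁻¹) = (q : G)⁻¹ * (q' * ((q : G) * (q' : G)⁻¹)) := by group
          _ = (q : G)⁻¹ * (((q : G) * (q' : G)⁻¹) * q') := by rw [h.central _ e _ q'.2]
          _ = 1 := by group
      rw [h5]; exact inv_mem e
  · obtain ⟨q, hq⟩ := QuotientGroup.mk'_surjective Z' (Φ x)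
    exact ⟨q, hinj (by rw [hf, hq])⟩

theorem HD.sp [Finite ι] : Sp Z Z h.Q := by
  classical
  have := Fintype.ofFinite ι
  obtain ⟨Ψ, h1, h2, -⟩ := h.coord
  refine ⟨le_rfl, h.zQ, h.central, h.comm_mem, fun q hq hqZ z hz => ?_⟩
  have h3 : Ψ ⟨q, hq⟩ ≠ Ψ 1 := by
    intro e
    rw [h2] at e
    apply hqZ
    simpa using e
  obtain ⟨i, hi⟩ := Function.ne_iff.1 h3
  have h4 : (Ψ 1 i : G) = 1 := by
    by_contra hne
    obtain ⟨z, hz, hz1⟩ := h.ne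
    obtain ⟨y, hy, e⟩ := h.surj i (Ψ 1 i) (Ψ 1 i).2 hne z hz
    have h5 := h1 1 i y hy
    rw [e] at h5
    apply hz1
    rw [← h5]
    simp
  have h5 : (Ψ ⟨q, hq⟩ i : G) ≠ 1 := by
    intro e
    apply hi
    apply Subtype.ext
    rw [h4, e]
  obtain ⟨y, hy, e⟩ := h.surj i _ (Ψ ⟨q, hq⟩ i).2 h5 z hz
  refine ⟨y, h.xQ _ hy, ?_⟩
  rw [← e]
  exact h1 ⟨q, hq⟩ i y hy

theorem HD.card [Finite G] [Fintype ι] : Nat.card h.Q = Nat.card Z * ∏ i, Nat.card (X i) := by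
  classical
  obtain ⟨Ψ, -, h2, h3⟩ := h.coord
  have hN := zNormal h.central
  have h4 : Nat.card (h.Q ⧸ Z.subgroupOf h.Q) = Nat.card (∀ i, X i) := by
    refine Nat.card_congr (Equiv.ofBijective (Quotient.lift Ψ ?_) ⟨?_, ?_⟩)
    · intro a b hab
      have h5 : a⁻¹ * b ∈ Z.subgroupOf h.Q := QuotientGroup.leftRel_apply.1 hab
      rw [h2]
      have h6 := hN.mem_comm h5
      have h7 := inv_mem h6
      rw [mem_subgroupOf] at h7
      have h8 : (((b * a⁻¹)⁻¹ : h.Q) : G) = (a : G) * (b : G)⁻¹ := by simp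
      rwa [h8] at h7
    · intro a b
      induction a using QuotientGroup.induction_on with
      | H a =>
        induction b using QuotientGroup.induction_on with
        | H b =>
          intro hab
          have h5 : Ψ a = Ψ b := hab
          rw [h2] at h5
          rw [QuotientGroup.eq]
          have h6 : (b * a⁻¹ : h.Q) ∈ Z.subgroupOf h.Q := by
            have h7 := inv_mem h5
            rw [mem_subgroupOf]
            have h8 : (((b * a⁻¹) : h.Q) : G) = ((a : G) * (b : G)⁻¹)⁻¹ := by simp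
            rwa [h8]
          exact hN.mem_comm h6
    · intro x
      obtain ⟨q, hq⟩ := h3 x
      exact ⟨(q : h.Q ⧸ Z.subgroupOf h.Q), hq⟩
  rw [← card_mul_rel h.zQ]
  show Nat.card Z * Nat.card (h.Q ⧸ Z.subgroupOf h.Q) = _
  rw [h4, Nat.card_pi]

end Cfsg.Agent.H351.IF
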