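import Cfsg.Agent.H351.IF.F4Cls
import Cfsg.Agent.H351.IF.HeisAbs
import Cfsg.Agent.H934.HeisF4G2

/-!
# S5719, `F₄(q)`, `q` odd (helper351): root groups

* `RG K r` : the root groups (`r < 48`), `mem_RG`, `card_RG`, `comm_RG`, `RG_gen`;
* `hdL α L = true` gives Heisenberg data `HD (RG K α) (fun i => RG K L[i]) Fin.rev`;
* `zz_comm` : `zz K m` commutes with `RG K r` if `prz r m = true`;
* `nw j` : the Weyl element, `nw_RG`, `nw_zz`.
-/

set_option autoImplicit false

namespace Cfsg.Agent.H351.IF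

open Cfsg.Lie Cfsg.Agent.ChevalleyStructure Cfsg.Agent.ChevalleyStructure.Elts
  Cfsg.Agent.ChevalleyStructure.CoxeterGeomTypes
  Cfsg.Agent.Nodes.RGDChev Cfsg.Agent.KFacts.RgdChevCoord Cfsg.Agent.OddHalf.NI.ModelChev
  Cfsg.Agent.H557.SignTorus Cfsg.Agent.H557.ToralTypes Cfsg.Agent.H557
  Cfsg.Agent.H934.HeisChev Cfsg.Agent.H934.HeisF4G2 Cfsg.Agent.H255.IFK

universe u

variable {K : Type u} [Field K]

/-- the root group -/
noncomputable def RG (K : Type u) [Field K] (r : ℕ) : Subgroup ↥(chevF4.group K) where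
  carrier := Set.range fun t : K => xe hF4 r t
  one_mem' := ⟨0, xe_zero hF4 r⟩
  mul_mem' := by
    rintro _ _ ⟨a, rfl⟩ ⟨b, rfl⟩
    exact ⟨a + b, xe_add hF4 r a b⟩
  inv_mem' := by
    rintro _ ⟨a, rfl⟩
    exact ⟨-a, xe_neg hF4 r a⟩

theorem mem_RG {r : ℕ} {g : ↥(chevF4.group K)} : g ∈ RG K r ↔ ∃ t : K, xe hF4 r t = g := Iff.rfl

theorem xe_mem_RG (r : ℕ) (t : K) : xe hF4 r t ∈ RG K r := ⟨t, rfl⟩

theorem card_RG {r : ℕ} (hr : r < 48) : Nat.card (RG K r) = Nat.card K := by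
  refine (Nat.card_congr (Equiv.ofBijective (fun t : K => (⟨xe hF4 r t, t, rfl⟩ : RG K r)) ⟨fun a b hab => ?_, ?_⟩)).symm
  · have h1 : xe hF4 r a = xe hF4 r b := congrArg Subtype.val hab
    have h2 : xe hF4 r (a - b) = (1 : ↥(chevF4.group K)) := by
      rw [sub_eq_add_neg, xe_add, xe_neg, h1, mul_inv_cancel]
    exact sub_eq_zero.1 (xe_eq_one hF4 hr h2)
  · rintro ⟨_, t, rfl⟩
    exact ⟨t, rfl⟩

/-- the root groups commute -/
def cmB (r s : ℕ) : Bool :=
  Nat.blt r 48 && Nat.blt s 48 && (Nat.beq r s || (!(Nat.beq s (chevF4.neg r)) && (chevF4.commTerms r s).isEmpty))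

theorem comm_RG {r s : ℕ} (h : cmB r s = true) {x y : ↥(chevF4.group K)} (hx : x ∈ RG K r) (hy : y ∈ RG K s) :
    x * y = y * x := by
  obtain ⟨t, rfl⟩ := hx
  obtain ⟨u, rfl⟩ := hy
  unfold cmB at h
  simp only [Bool.and_eq_true, Bool.or_eq_true, Bool.not_eq_true', List.isEmpty_iff] at h
  obtain ⟨⟨hr, hs⟩, h⟩ := h
  have hr' : r < chevF4.nroots := Nat.le_of_ble_eq_true hr
  have hs' : s < chevF4.nroots := Nat.le_of_ble_eq_true hs
  by_cases hrs : s = r
  · subst hrs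
    show xe hF4 s t * xe hF4 s u = xe hF4 s u * xe hF4 s t
    rw [← xe_add, ← xe_add, add_comm]
  · rcases h with h | h
    · exact absurd (Nat.eq_of_beq_eq_true h).symm hrs
    · have hneg : s ≠ chevF4.neg r := fun e => by
        have := Nat.ne_of_beq_eq_false h.1
        exact this e
      exact (comm_nil hF4 hr' hs' hrs hneg h.2 t u).symm

/-- the commutator map of two root groups is onto the root group `m` (`q` odd) -/
def prB (r s m : ℕ) : Bool :=
  Nat.blt r 48 && Nat.blt s 48 && Nat.blt m 48 && !(Nat.beq s r) && !(Nat.beq s (chevF4.neg r)) &&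
    ([1, -1, 2, -2] : List ℤ).any fun c => decide (chevF4.commTerms r s = [(m, c, 1, 1)])

theorem pr_RG {r s m : ℕ} (h : prB r s m = true) (hrm : cmB r m = true) (hsm : cmB s m = true) (h2 : (2 : K) ≠ 0) :
    (∀ x ∈ RG K r, ∀ y ∈ RG K s, x * y * x⁻¹ * y⁻¹ ∈ RG K m) ∧
    ∀ x ∈ RG K r, x ≠ 1 → ∀ z ∈ RG K m, ∃ y ∈ RG K s, x * y * x⁻¹ * y⁻¹ = z := by
  unfold prB at h
  simp only [Bool.and_eq_true, Bool.not_eq_true', List.any_eq_true, decide_eq_true_eq] at h
  obtain ⟨⟨⟨⟨⟨hr, hs⟩, -⟩, hrs⟩, hneg⟩, c, hc, hct⟩ := h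
  have hr' : r < chevF4.nroots := Nat.le_of_ble_eq_true hr
  have hs' : s < chevF4.nroots := Nat.le_of_ble_eq_true hs
  have hrs' : s ≠ r := Nat.ne_of_beq_eq_false hrs
  have hneg' : s ≠ chevF4.neg r := Nat.ne_of_beq_eq_false hneg
  have hc0 : (c : K) ≠ 0 := by
    simp only [List.mem_cons, List.not_mem_nil, or_false] at hc
    rcases hc with rfl | rfl | rfl | rfl
    · simp
    · simp
    · simpa using h2
    · simpa using h2
  have key : ∀ t u : K, xe hF4 r t * xe hF4 s u * (xe hF4 r t)⁻¹ * (xe hF4 s u)⁻¹ = xe hF4 m ((c : K) * t * u) := by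
    intro t u
    have h1 := comm_single hF4 hr' hs' hrs' hneg' hct t u
    have h3 := comm_RG (K := K) hrm (xe_mem_RG r t) (xe_mem_RG m ((c : K) * t * u))
    have h4 := comm_RG (K := K) hsm (xe_mem_RG s u) (xe_mem_RG m ((c : K) * t * u))
    have h5 : xe hF4 m (-(c : K) * t * u) = (xe hF4 m ((c : K) * t * u))⁻¹ := by
      rw [← xe_neg]; congr 1; ring
    rw [h5] at h1
    set a := xe hF4 r t
    set b := xe hF4 s u
    set w := xe hF4 m ((c : K) * t * u)
    have h6 : b * a * w = a * b := by rw [h1, inv_mul_cancel_right]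
    rw [← h6]
    calc b * a * w * a⁻¹ * b⁻¹ = b * (a * w) * a⁻¹ * b⁻¹ := by group
      _ = b * (w * a) * a⁻¹ * b⁻¹ := by rw [h3]
      _ = (b * w) * b⁻¹ := by group
      _ = (w * b) * b⁻¹ := by rw [h4]
      _ = w := by group
  refine ⟨?_, ?_⟩
  · rintro _ ⟨t, rfl⟩ _ ⟨u, rfl⟩
    exact ⟨_, (key t u).symm⟩
  · rintro _ ⟨t, rfl⟩ hne _ ⟨v, rfl⟩
    have ht : t ≠ 0 := by
      rintro rfl
      exact hne (xe_zero hF4 r)
    refine ⟨xe hF4 s (v / (c * t)), xe_mem_RG _ _, ?_⟩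
    refine (key t _).trans ?_
    show xe hF4 m _ = xe hF4 m v
    congr 1
    field_simp

/-- check of Heisenberg data: the partner of `L[i]` is `L[n-1-i]` -/
def hdB (α : ℕ) (L : List ℕ) : Bool :=
  (List.range L.length).all fun i =>
    cmB (L.getD i 0) α && cmB α (L.getD i 0) && prB (L.getD i 0) (L.getD (L.length - 1 - i) 0) α &&
    (List.range L.length).all fun j => Nat.beq j (L.length - 1 - i) || cmB (L.getD i 0) (L.getD j 0)

theorem hd_of {α : ℕ} {L : List ℕ} {n : ℕ} (hn : L.length = n) (hα : α < 48) (h : hdB α L = true)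
    (h2 : (2 : K) ≠ 0) : HD (RG K α) (fun i : Fin n => RG K (L.getD i 0)) Fin.rev := by
  subst hn
  unfold hdB at h
  simp only [List.all_eq_true, List.mem_range, Bool.and_eq_true, Bool.or_eq_true] at h
  have hrev : ∀ i : Fin L.length, ((Fin.rev i : Fin L.length) : ℕ) = L.length - 1 - i := by
    intro i
    rw [Fin.val_rev]
    omega
  have hαα : cmB α α = true := by
    unfold cmB
    simp only [Bool.and_eq_true, Bool.or_eq_true]
    exact ⟨⟨Nat.ble_eq_true_of_le hα, Nat.ble_eq_true_of_le hα⟩, Or.inl (by simp)⟩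
  have hp : ∀ i : Fin L.length, _ := fun i => pr_RG (K := K) (h i i.2).1.2 (h i i.2).1.1.1
    (h (Fin.rev i : Fin L.length) (Fin.rev i).2 |> fun e => by rw [hrev] at e; exact e.1.1.1) h2
  refine ⟨fun a ha b hb => comm_RG hαα ha hb, fun i z hz x hx => comm_RG (h i i.2).1.1.1 hx hz, ?_, ?_, ?_,
    Fin.rev_rev, ?_⟩
  · intro i j hij x hx y hy
    rcases (h i i.2).2 j j.2 with e | e
    · exfalso
      apply hij
      apply Fin.ext
      rw [hrev]
      exact Nat.eq_of_beq_eq_true e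
    · exact comm_RG e hx hy
  · intro i x hx y hy
    have hy' : y ∈ RG K (L.getD (Fin.rev i : Fin L.length) 0) := hy
    rw [hrev] at hy'
    exact (hp i).1 x hx y hy'
  · intro i x hx hne z hz
    obtain ⟨y, hy, e⟩ := (hp i).2 x hx hne z hz
    refine ⟨y, ?_, e⟩
    show y ∈ RG K (L.getD (Fin.rev i : Fin L.length) 0)
    rw [hrev]
    exact hy
  · refine ⟨xe hF4 α 1, xe_mem_RG _ _, fun e => ?_⟩
    exact one_ne_zero (xe_eq_one hF4 hα e)

theorem hd_card [Finite K] {α : ℕ} {L : List ℕ} {n : ℕ} (hn : L.length = n) (hα : α < 48)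
    (hL : ∀ i < n, L.getD i 0 < 48) (h : hdB α L = true) (h2 : (2 : K) ≠ 0) :
    Nat.card (hd_of (K := K) hn hα h h2).Q = Nat.card K ^ (n + 1) := by
  have : Finite ↥(chevF4.group K) := Finite.of_injective _ Subtype.val_injective
  rw [HD.card, card_RG hα, Finset.prod_congr rfl fun (i : Fin n) _ => card_RG (K := K) (hL i.1 i.2), Finset.prod_const,
    Finset.card_univ, Fintype.card_fin, pow_succ, mul_comm]

/-- the root groups generate -/
theorem eq_top_of {A : Subgroup ↥(chevF4.group K)} (h : ∀ r < 48, RG K r ≤ A) : A = ⊤ := by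
  rw [eq_top_iff]
  rintro ⟨g, hg⟩ -
  have hg' := hg
  unfold ChevalleyDatum.group at hg'
  have key : ∀ hg : g ∈ chevF4.group K, (⟨g, hg⟩ : ↥(chevF4.group K)) ∈ A := by
    induction hg' using Subgroup.closure_induction with
    | mem x hx' =>
      obtain ⟨r, t, h'⟩ := hx'
      intro hx
      have h1 : (⟨x, hx⟩ : ↥(chevF4.group K)) = xe hF4 r t := by
        apply Subtype.ext
        apply Units.ext
        rw [h']
        have h2 := coe_xG (F := K) hF4 (r : ℕ) t
        refine Eq.trans ?_ h2.symm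
        unfold ChevalleyDatum.x
        rw [dif_pos r.2]
      rw [h1]
      exact h r r.2 (xe_mem_RG _ _)
    | one =>
      intro h1
      exact A.one_mem
    | mul x y hx' hy' ihx ihy =>
      intro hxy
      have e : (⟨x * y, hxy⟩ : ↥(chevF4.group K)) = ⟨x, hx'⟩ * ⟨y, hy'⟩ := rfl
      rw [e]
      exact A.mul_mem (ihx hx' hx') (ihy hy' hy')
    | inv x hx' ihx =>
      intro hxy
      have e : (⟨x⁻¹, hxy⟩ : ↥(chevF4.group K)) = (⟨x, hx'⟩ : ↥(chevF4.group K))⁻¹ := rfl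
      rw [e]
      exact A.inv_mem (ihx hx' hx')
  exact key hg

/-! ### the torus involutions and the Weyl elements -/

theorem xc_eq {r : ℕ} (hr : r < 48) (a : K) : xc Nodes.KindF.isType (vec chevF4 4 r) a = xe hF4 r a :=
  Subtype.ext (coe_xc Nodes.KindF.isType hr a)

/-- `zz K m` commutes with the root group `r` -/
def pzB (m r : ℕ) : Bool :=
  Nat.blt r 48 && decide ((((if m.testBit 0 then chevF4.cartan 0 r else 0) + (if m.testBit 1 then chevF4.cartan 1 r else 0) +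
    (if m.testBit 2 then chevF4.cartan 2 r else 0) + (if m.testBit 3 then chevF4.cartan 3 r else 0) : ℤ)) % 2 = 0)

theorem zz_comm {m r : ℕ} (h : pzB m r = true) {x : ↥(chevF4.group K)} (hx : x ∈ RG K r) :
    zz K m * x = x * zz K m := by
  obtain ⟨a, rfl⟩ := hx
  unfold pzB at h
  simp only [Bool.and_eq_true, decide_eq_true_eq] at h
  have hr : r < chevF4.nroots := Nat.le_of_ble_eq_true h.1
  have h1 := (act Nodes.KindF.isType hr (thT Nodes.KindF.isType (sg K 4 m)).2).2 a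
  have h2 := chH_thT Nodes.KindF.isType hr (sg K 4 m)
  have h3 : chH Nodes.KindF.isType hr (thT Nodes.KindF.isType (sg K 4 m)) =
    ch Nodes.KindF.isType (vec chevF4 4 r) (thT Nodes.KindF.isType (sg K 4 m) : ↥(chevF4.group K)) := rfl
  rw [← h3, h2] at h1
  have h4 : ∏ i : Fin 4, ((sg K 4 m i : Kˣ) : K) ^ chevF4.cartan i r = 1 := by
    rw [Fin.prod_univ_four]
    have e : ∀ k : Fin 4, ((sg K 4 m k : Kˣ) : K) ^ chevF4.cartan k r =
        (-1 : K) ^ (if m.testBit k then chevF4.cartan k r else 0) := by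
      intro k
      unfold sg
      by_cases hk : m.testBit k = true <;> simp [hk]
    rw [e, e, e, e, ← zpow_add₀ (by simp), ← zpow_add₀ (by simp), ← zpow_add₀ (by simp)]
    have h5 : Even ((if m.testBit 0 then chevF4.cartan 0 r else 0) + (if m.testBit 1 then chevF4.cartan 1 r else 0) +
      (if m.testBit 2 then chevF4.cartan 2 r else 0) + (if m.testBit 3 then chevF4.cartan 3 r else 0) : ℤ) :=
      Int.even_iff.2 h.2
    exact h5.neg_one_zpow
  rw [h4, one_mul, xc_eq hr] at h1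
  show zz K m * xe hF4 r a = xe hF4 r a * zz K m
  rw [← mul_inv_eq_iff_eq_mul]
  exact h1

/-- the Weyl elements -/
noncomputable def nw (K : Type u) [Field K] (j : Fin 4) : ↥(chevF4.group K) := nc Nodes.KindF.isType K j

theorem nw_RG (j : Fin 4) {r : ℕ} (hr : r < 48) {x : ↥(chevF4.group K)} (hx : x ∈ RG K r) :
    nw K j * x * (nw K j)⁻¹ ∈ RG K (chevF4.reflectRoot j r) := by
  obtain ⟨a, rfl⟩ := hx
  obtain ⟨c, -, hc⟩ := nact Nodes.KindF.isType (K := K) (i := j) (r := r) hr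
  have h1 := hc a
  rw [xc_eq hr, xc_eq (Cfsg.Agent.ChevalleyStructure.NPerm.reflectRoot_lt hF4 (i := j) j.2 hr)] at h1
  exact ⟨c * a, h1.symm⟩

theorem nw_zz (j : Fin 4) (m : ℕ) :
    nw K j * zz K m * (nw K j)⁻¹ = zz K (step 4 Cfsg.Agent.H557.OrbF4.cm j m) := by
  have h1 := Cfsg.Agent.H557.Toral.nc_th Nodes.KindF.isType (K := K) j (sg K 4 m)
  rw [sg_step Cfsg.Agent.H557.OrbF4.hcm] at h1
  exact h1

end Cfsg.Agent.H351.IF
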