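import Cfsg.Agent.H351.IF.F4Base
import Cfsg.Agent.H172.S3G2

/-!
# S5719, `F₄(q)`, `q` odd (helper351): involutions of type `B₄` in `A`

* `Opp25 K` : the statement about opposite long root elements used;
* `long_le` : `zz K j ∈ A`, `j = 1, 2, 3`, gives the long root groups in `A`;
* `top_of_one` : `zz K 1 ∈ A` gives `A = ⊤`.
-/

set_option autoImplicit false

namespace Cfsg.Agent.H351.IF

open Cfsg.Lie Cfsg.Agent.ChevalleyStructure Cfsg.Agent.ChevalleyStructure.Elts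
  Cfsg.Agent.Nodes.RGDChev Cfsg.Agent.KFacts.RgdChevCoord Cfsg.Agent.OddHalf.NI.ModelChev
  Cfsg.Agent.H557.SignTorus Cfsg.Agent.H557
  Cfsg.Agent.H934.HeisChev Cfsg.Agent.H934.HeisF4G2 Cfsg.Agent.H255.IFK Cfsg.Agent.H172.S3G2

open scoped Pointwise

universe u

/-- two opposite long root elements generate a group containing the involution -/
def Opp25 (K : Type u) [Field K] : Prop :=
  ∀ (S : Subgroup ↥(chevF4.group K)) (x y : ↥(chevF4.group K)), x ∈ S → x ∈ RG K 25 → x ≠ 1 → y ∈ S → y ∈ RG K 22 →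
    y ≠ 1 → zz K 4 ∈ S

/-- the long roots -/
def lgs : List ℕ := [0, 1, 2, 4, 5, 6, 15, 16, 17, 21, 22, 23, 24, 25, 26, 30, 31, 32, 41, 42, 43, 45, 46, 47]

/-- the eight long roots with inner product one with a long root -/
def tabQ : List (ℕ × List ℕ) := [(0, [1, 2, 4, 5, 15, 16, 21, 23]), (1, [0, 2, 4, 6, 15, 17, 22, 24]),
  (2, [0, 1, 5, 6, 16, 17, 25, 26]), (4, [0, 1, 5, 6, 21, 22, 30, 31]), (5, [0, 2, 4, 6, 23, 25, 30, 32]),
  (6, [1, 2, 4, 5, 24, 26, 31, 32]), (15, [0, 1, 16, 17, 21, 22, 41, 42]), (16, [0, 2, 15, 17, 23, 25, 41, 43]),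
  (17, [1, 2, 15, 16, 24, 26, 42, 43]), (21, [0, 4, 15, 22, 23, 30, 41, 45]), (22, [1, 4, 15, 21, 24, 31, 42, 45]),
  (23, [0, 5, 16, 21, 25, 30, 41, 46]), (24, [1, 6, 17, 22, 26, 31, 42, 47]), (25, [2, 5, 16, 23, 26, 32, 43, 46]),
  (26, [2, 6, 17, 24, 25, 32, 43, 47]), (30, [4, 5, 21, 23, 31, 32, 45, 46]), (31, [4, 6, 22, 24, 30, 32, 45, 47]),
  (32, [5, 6, 25, 26, 30, 31, 46, 47]), (41, [15, 16, 21, 23, 42, 43, 45, 46]), (42, [15, 17, 22, 24, 41, 43, 45, 47]),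
  (43, [16, 17, 25, 26, 41, 42, 46, 47]), (45, [21, 22, 30, 31, 41, 42, 46, 47]), (46, [23, 25, 30, 32, 41, 43, 45, 47]),
  (47, [24, 26, 31, 32, 42, 43, 45, 46])]

theorem tab_ok : ∀ p ∈ tabQ, hdB p.1 p.2 = true ∧ p.2.length = 8 ∧ p.1 < 48 ∧ (∀ i < 8, p.2.getD i 0 < 48) ∧
    ∀ j < 4, pzB j p.1 = true ∧ ∀ i < 8, pzB j (p.2.getD i 0) = true := by decide +kernel

theorem tab_cover : ∀ r ∈ lgs, ∃ p ∈ tabQ, p.1 = r := by decide +kernel

theorem num_b {q f : ℕ} (hq : 2 ≤ q)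
    (h : f ^ 5 * (q ^ 16 * ((q ^ 2 - 1) * (q ^ 4 - 1) * (q ^ 6 - 1) * (q ^ 8 - 1))) <
      q ^ 24 * (q ^ 2 - 1) * (q ^ 6 - 1) * (q ^ 8 - 1) * (q ^ 12 - 1)) : f < q ^ 4 := by
  by_contra hf
  have hf' : q ^ 4 ≤ f := not_lt.1 hf
  have h1 : (q ^ 4) ^ 5 ≤ f ^ 5 := Nat.pow_le_pow_left hf' 5
  have h4 : 1 ≤ q ^ 4 - 1 := by
    have : 2 ^ 4 ≤ q ^ 4 := Nat.pow_le_pow_left hq 4
    omega
  have h12 : q ^ 12 - 1 ≤ q ^ 12 := Nat.sub_le _ _
  set a := q ^ 2 - 1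
  set b := q ^ 6 - 1
  set c := q ^ 8 - 1
  set d := q ^ 4 - 1
  have h5 : (q ^ 4) ^ 5 * (q ^ 16 * (a * d * b * c)) ≤ f ^ 5 * (q ^ 16 * (a * d * b * c)) := Nat.mul_le_mul_right _ h1
  have h6 := lt_of_le_of_lt h5 h
  have h7 : q ^ 24 * a * b * c * (q ^ 12 - 1) ≤ q ^ 24 * a * b * c * q ^ 12 := Nat.mul_le_mul_left _ h12
  have h8 : q ^ 24 * a * b * c * q ^ 12 ≤ (q ^ 4) ^ 5 * (q ^ 16 * (a * d * b * c)) := by
    calc q ^ 24 * a * b * c * q ^ 12 = q ^ 36 * (a * b * c) * 1 := by ring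
      _ ≤ q ^ 36 * (a * b * c) * d := Nat.mul_le_mul_left _ h4
      _ = _ := by ring
  omega

variable {K : Type u} [Field K] [Fintype K]

theorem finT : Finite ↥(chevF4.group K) := Finite.of_injective _ Subtype.val_injective

theorem long_le (ho : Odd (Fintype.card K)) {A : Subgroup ↥(chevF4.group K)} (h : H255.IFK.Fix A) {j : ℕ} (hj0 : 0 < j)
    (hj : j < 4) (hs : zz K j ∈ A) : ∀ r ∈ lgs, RG K r ≤ A := by
  have : Finite ↥(chevF4.group K) := finT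
  have hq : 2 ≤ Fintype.card K := Fintype.one_lt_card
  have h2 : (2 : K) ≠ 0 := by
    intro h
    have h3 := FiniteField.even_card_of_char_two (F := K) (by
      have : ringChar K ∣ 2 := by
        rw [← CharP.cast_eq_zero_iff K (ringChar K) 2]
        exact_mod_cast h
      rcases (Nat.dvd_prime Nat.prime_two).1 this with h4 | h4
      · exact absurd h4 (CharP.ringChar_ne_one)
      · exact h4)
    exact (Nat.not_even_iff_odd.2 ho) (Nat.even_iff.2 h3)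
  obtain ⟨-, hord, hcard, -⟩ := classes (K := K) ho
  obtain ⟨f, hf, hf5⟩ := h _ hs (hord j (by omega) (by omega))
  have h1 : 0 < {u : ↥(chevF4.group K) | u ∈ A ∧ IsConj (zz K j) u}.ncard :=
    (Set.ncard_pos (Set.toFinite _)).2 ⟨zz K j, hs, IsConj.refl _⟩
  have hf6 : f ^ 5 < (Subgroup.centralizer ({zz K j} : Set ↥(chevF4.group K))).index :=
    lt_of_le_of_lt (Nat.le_mul_of_pos_right _ h1) hf5
  have hfq : f < Fintype.card K ^ 4 := by
    refine num_b hq ?_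
    have h3 := (Subgroup.centralizer ({zz K j} : Set ↥(chevF4.group K))).index_mul_card
    rw [hcard j hj0 hj, Cfsg.Agent.S1062.result rfl] at h3
    rw [← h3]
    refine Nat.mul_lt_mul_of_pos_right hf6 ?_
    rw [← hcard j hj0 hj]
    exact Nat.card_pos
  intro r hr
  obtain ⟨p, hp, rfl⟩ := tab_cover r hr
  obtain ⟨hd, hl, h48, hL, hz⟩ := tab_ok p hp
  by_contra hcon
  set D := hd_of (K := K) hl h48 hd h2 with hD
  have hcQ : Nat.card D.Q = Nat.card K ^ 9 := hd_card hl h48 hL hd h2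
  have hQc : D.Q ≤ Subgroup.centralizer ({zz K j} : Set ↥(chevF4.group K)) := by
    refine D.Q_le (fun x hx => ?_) (fun i x hx => ?_)
    · rw [Subgroup.mem_centralizer_singleton_iff]
      exact (zz_comm (hz j hj).1 hx).symm
    · rw [Subgroup.mem_centralizer_singleton_iff]
      exact (zz_comm ((hz j hj).2 i i.2) hx).symm
  have h3 := hf D.Q hQc
  have h4 := card_inf_mul_rel A D.Q
  have h5 := iso D.sp (R := A ⊓ D.Q) inf_le_right (fun hle => hcon (hle.trans inf_le_left))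
  rw [card_RG h48, hcQ] at h5
  rw [hcQ] at h4
  have hZ : 2 * Nat.card ((A ⊓ D.Q) ⊓ RG K p.1 : Subgroup ↥(chevF4.group K)) ≤ Nat.card K := by
    have h6 : (A ⊓ D.Q) ⊓ RG K p.1 ≤ RG K p.1 := inf_le_right
    have h7 := card_mul_rel h6
    rw [card_RG h48] at h7
    have h10 : ((A ⊓ D.Q) ⊓ RG K p.1).relIndex (RG K p.1) ≠ 0 := by
      intro h0
      rw [h0, mul_zero] at h7
      have := Nat.card_pos (α := K)
      omega
    rw [← h7, mul_comm]
    refine Nat.mul_le_mul_left _ ?_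
    by_contra h8
    have h9 : ((A ⊓ D.Q) ⊓ RG K p.1).relIndex (RG K p.1) ≤ 1 := by omega
    have h11 : ((A ⊓ D.Q) ⊓ RG K p.1).relIndex (RG K p.1) = 1 := by omega
    rw [Subgroup.relIndex_eq_one] at h11
    exact hcon (h11.trans (inf_le_left.trans inf_le_left))
  rw [← Nat.card_eq_fintype_card] at hfq hq
  set q := Nat.card K
  set R := Nat.card (A ⊓ D.Q : Subgroup ↥(chevF4.group K))
  set c := Nat.card ((A ⊓ D.Q) ⊓ RG K p.1 : Subgroup ↥(chevF4.group K))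
  have hR0 : 0 < R := Nat.card_pos
  have h6 : q ^ 9 < R * q ^ 4 := by
    rw [← h4]
    exact Nat.mul_lt_mul_of_pos_left (lt_of_le_of_lt h3 hfq) hR0
  have h7 : q ^ 5 < R := by
    have : q ^ 5 * q ^ 4 < R * q ^ 4 := by
      calc q ^ 5 * q ^ 4 = q ^ 9 := by ring
        _ < _ := h6
    exact lt_of_mul_lt_mul_right this (Nat.zero_le _)
  have h8 : R ^ 2 * q * 4 ≤ q ^ 9 * q ^ 2 := by
    calc R ^ 2 * q * 4 ≤ q ^ 9 * c ^ 2 * 4 := Nat.mul_le_mul_right _ h5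
      _ = q ^ 9 * (2 * c) ^ 2 := by ring
      _ ≤ q ^ 9 * q ^ 2 := Nat.mul_le_mul_left _ (Nat.pow_le_pow_left hZ 2)
  have h9 : (q ^ 5) ^ 2 * q * 4 < R ^ 2 * q * 4 := by
    have h10 : (q ^ 5) ^ 2 < R ^ 2 := Nat.pow_lt_pow_left h7 (by norm_num)
    have h11 : 0 < q * 4 := by omega
    have := Nat.mul_lt_mul_of_pos_right h10 h11
    simpa [mul_assoc] using this
  have h10 : q ^ 9 * q ^ 2 < (q ^ 5) ^ 2 * q * 4 := by
    have h12 : 0 < q ^ 11 := Nat.pow_pos (by omega)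
    calc q ^ 9 * q ^ 2 = q ^ 11 := by ring
      _ < q ^ 11 * 4 := by omega
      _ = _ := by ring
  omega

/-- a conjugate of a long root group by an element commuting with `zz K j` -/
theorem conj_long_le (ho : Odd (Fintype.card K)) {A : Subgroup ↥(chevF4.group K)} (h : H255.IFK.Fix A) {j : ℕ} (hj0 : 0 < j)
    (hj : j < 4) (hs : zz K j ∈ A) {c : ↥(chevF4.group K)} (hc : zz K j * c = c * zz K j) {r : ℕ} (hr : r ∈ lgs)
    {x : ↥(chevF4.group K)} (hx : x ∈ RG K r) : c * x * c⁻¹ ∈ A := by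
  have : Finite ↥(chevF4.group K) := finT
  have h1 : H255.IFK.Fix (MulAut.conj c⁻¹ • A) := h.conj c⁻¹
  have h2 : zz K j ∈ MulAut.conj c⁻¹ • A := by
    rw [mem_conj, inv_inv, ← hc, mul_inv_cancel_right]
    exact hs
  have h3 := long_le ho h1 hj0 hj h2 r hr hx
  rw [mem_conj, inv_inv] at h3
  exact h3

/-- the table for the short roots: `γ = λ + δ`, `λ` long, `δ` short, `zz K j` commutes with `δ` -/
def tabS : List (ℕ × ℕ × ℕ × ℕ) := [(3, 2, 0, 29), (7, 3, 0, 36), (8, 1, 0, 38), (9, 1, 0, 39), (10, 1, 1, 39),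
  (11, 3, 0, 40), (12, 3, 1, 40), (13, 3, 2, 40), (14, 1, 4, 39), (18, 2, 0, 44), (19, 2, 1, 44), (20, 2, 2, 44),
  (27, 2, 4, 44), (28, 2, 5, 44), (29, 2, 6, 44), (33, 1, 15, 39), (34, 3, 15, 40), (35, 3, 16, 40), (36, 3, 17, 40),
  (37, 1, 21, 39), (38, 1, 22, 39), (39, 1, 25, 38), (40, 3, 30, 36), (44, 2, 41, 29)]

/-- the check of a row -/
def rowB (p : ℕ × ℕ × ℕ × ℕ) : Bool :=
  decide (0 < p.2.1) && decide (p.2.1 < 4) && pzB p.2.1 p.2.2.2 && decide (p.2.2.1 ∈ lgs) &&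
  decide (p.2.2.2 < 48) && decide (p.2.2.1 < 48) && !(Nat.beq p.2.2.1 p.2.2.2) &&
  !(Nat.beq p.2.2.1 (chevF4.neg p.2.2.2)) &&
  lgs.any fun l => ([1, -1] : List ℤ).any fun c => ([1, -1] : List ℤ).any fun c' =>
    decide (chevF4.commTerms p.2.2.2 p.2.2.1 = [(p.1, c, 1, 1), (l, c', 2, 1)])

theorem tabS_ok : ∀ p ∈ tabS, rowB p = true := by decide +kernel

theorem cover48 : ∀ r < 48, r ∈ lgs ∨ ∃ p ∈ tabS, p.1 = r := by decide +kernel

theorem short_le (ho : Odd (Fintype.card K)) {A : Subgroup ↥(chevF4.group K)} (h : H255.IFK.Fix A)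
    (hs : ∀ j, 0 < j → j < 4 → zz K j ∈ A) : A = ⊤ := by
  have hlong := long_le ho h (j := 1) (by norm_num) (by norm_num) (hs 1 (by norm_num) (by norm_num))
  apply eq_top_of
  intro r hr
  rcases cover48 r hr with h1 | ⟨p, hp, rfl⟩
  · exact hlong r h1
  have hrow := tabS_ok p hp
  unfold rowB at hrow
  simp only [Bool.and_eq_true, Bool.not_eq_true', List.any_eq_true, decide_eq_true_eq] at hrow
  obtain ⟨⟨⟨⟨⟨⟨⟨⟨hj0, hj4⟩, hpz⟩, hlam⟩, hd48⟩, hl48⟩, hne⟩, hneg⟩, l, hl, c, hc, c', -, hct⟩ := hrow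
  obtain ⟨γ, j, lam, δ⟩ := p
  simp only at *
  have hne' : lam ≠ δ := Nat.ne_of_beq_eq_false hne
  have hneg' : lam ≠ chevF4.neg δ := Nat.ne_of_beq_eq_false hneg
  have hcc : (c : K) * c = 1 := by
    simp only [List.mem_cons, List.not_mem_nil, or_false] at hc
    rcases hc with rfl | rfl <;> simp
  rintro _ ⟨v, rfl⟩
  show xe hF4 γ v ∈ A
  have h1 := conj_gen hF4 (r := δ) (s := lam) hd48 hl48 hne' hneg' (c * v) (1 : K)
  have h2 : xe hF4 δ ((c : K) * v) * xe hF4 lam 1 * (xe hF4 δ ((c : K) * v))⁻¹ ∈ A :=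
    conj_long_le ho h hj0 hj4 (hs j hj0 hj4) (zz_comm hpz (xe_mem_RG _ _)) hlam (xe_mem_RG _ _)
  rw [h1] at h2
  have h3 : xe hF4 lam (1 : K) ∈ A := hlong lam hlam (xe_mem_RG _ _)
  have h4 := (A.mul_mem_cancel_left h3).1 h2
  have h5 : chevF4.commWord K δ lam (-((c : K) * v)) 1 =
      [(γ, (c : K) * (- -((c : K) * v)) ^ 1 * 1 ^ 1), (l, (c' : K) * (- -((c : K) * v)) ^ 2 * 1 ^ 1)] := by
    show (chevF4.commTerms δ lam).map _ = _
    rw [hct]
    rfl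
  rw [h5] at h4
  have h6 : wd hF4 [(γ, (c : K) * (- -((c : K) * v)) ^ 1 * 1 ^ 1), (l, (c' : K) * (- -((c : K) * v)) ^ 2 * 1 ^ 1)] =
      xe hF4 γ ((c : K) * (- -((c : K) * v)) ^ 1 * 1 ^ 1) * xe hF4 l ((c' : K) * (- -((c : K) * v)) ^ 2 * 1 ^ 1) := by
    simp [wd]
  rw [h6] at h4
  have h7 := (A.mul_mem_cancel_right (hlong l hl (xe_mem_RG _ _))).1 h4
  have h8 : (c : K) * (- -((c : K) * v)) ^ 1 * 1 ^ 1 = v := by
    rw [neg_neg, pow_one, one_pow, mul_one, ← mul_assoc, hcc, one_mul]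
  rwa [h8] at h7

omit [Fintype K] in
theorem zz_mul (m n k : ℕ) (h : ∀ i : Fin 4, (k.testBit i = true ↔ ¬ (m.testBit i = n.testBit i))) :
    zz K m * zz K n = zz K k := by
  unfold zz
  rw [← map_mul]
  congr 1
  funext i
  unfold sg
  rw [Pi.mul_apply]
  have := h i
  by_cases h1 : m.testBit i = true <;> by_cases h2 : n.testBit i = true <;> simp_all

/-- **an involution of type `B₄` in `A` gives `A = T`** -/
theorem top_of_one (ho : Odd (Fintype.card K)) (hopp : Opp25 K) {A : Subgroup ↥(chevF4.group K)} (h : H255.IFK.Fix A)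
    (hs : zz K 1 ∈ A) : A = ⊤ := by
  have : Finite ↥(chevF4.group K) := finT
  have hlong := long_le ho h (j := 1) (by norm_num) (by norm_num) hs
  have hne : ∀ r < 48, xe hF4 r (1 : K) ≠ 1 := fun r hr e => one_ne_zero (xe_eq_one hF4 hr e)
  have h4 : zz K 4 ∈ A := hopp A _ _ (hlong 25 (by decide) (xe_mem_RG 25 1)) (xe_mem_RG 25 1) (hne 25 (by norm_num))
    (hlong 22 (by decide) (xe_mem_RG 22 1)) (xe_mem_RG 22 1) (hne 22 (by norm_num))
  have e25 : chevF4.reflectRoot ((1 : Fin 4) : ℕ) 25 = 30 := by decide +kernel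
  have e22 : chevF4.reflectRoot ((1 : Fin 4) : ℕ) 22 = 17 := by decide +kernel
  have h6 : zz K 6 ∈ A := by
    have h7 : ∀ r, RG K (chevF4.reflectRoot ((1 : Fin 4) : ℕ) r) ≤ A → r < 48 → ∀ x ∈ RG K r,
        x ∈ MulAut.conj (nw K 1)⁻¹ • A := by
      intro r hr h48 x hx
      rw [mem_conj, inv_inv]
      exact hr (nw_RG 1 h48 hx)
    have h8 := hopp (MulAut.conj (nw K 1)⁻¹ • A) _ _
      (h7 25 (by rw [e25]; exact hlong 30 (by decide)) (by norm_num) _ (xe_mem_RG 25 1)) (xe_mem_RG 25 1)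
      (hne 25 (by norm_num))
      (h7 22 (by rw [e22]; exact hlong 17 (by decide)) (by norm_num) _ (xe_mem_RG 22 1)) (xe_mem_RG 22 1)
      (hne 22 (by norm_num))
    rw [mem_conj, inv_inv, nw_zz] at h8
    have e : step 4 Cfsg.Agent.H557.OrbF4.cm ((1 : Fin 4) : ℕ) 4 = 6 := by decide +kernel
    rwa [e] at h8
  have h2 : zz K 2 ∈ A := by
    rw [← zz_mul (K := K) 4 6 2 (by decide)]
    exact A.mul_mem h4 h6
  have h3 : zz K 3 ∈ A := by
    rw [← zz_mul (K := K) 1 2 3 (by decide)]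
    exact A.mul_mem hs h2
  apply short_le ho h
  intro j hj0 hj4
  have : j = 1 ∨ j = 2 ∨ j = 3 := by omega
  rcases this with rfl | rfl | rfl
  · exact hs
  · exact h2
  · exact h3

end Cfsg.Agent.H351.IF
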