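import Cfsg.Agent.H557.InvF4
import Cfsg.Agent.S1062

/-!
# S5719, `F₄(q)`, `q` odd (helper351): the classes of involutions

`Cls` : every involution is conjugate to `z = th (sg 5)` or `s = th (sg 1)`; the orders of the centralisers.
-/

set_option autoImplicit false

namespace Cfsg.Agent.H351.IF

open Cfsg.Lie Cfsg.Agent.ChevalleyStructure Cfsg.Agent.ChevalleyStructure.CoxeterGeomTypes
  Cfsg.Agent.Nodes.RGDChev Cfsg.Agent.KFacts.RgdChevCoord Cfsg.Agent.OddHalf.NI.ModelChev
  Cfsg.Agent.H557.SubTab Cfsg.Agent.H557.SubLink Cfsg.Agent.H557.SignTorus Cfsg.Agent.H557.InvClass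
  Cfsg.Agent.H557.ToralTypes Cfsg.Agent.H557.LinkF4 Cfsg.Agent.H557.OrbF4 Cfsg.Agent.H557.InvF4 Cfsg.Agent.H557

universe u

/-- the involutions of the torus -/
noncomputable def zz (K : Type u) [Field K] (m : ℕ) : ↥(chevF4.group K) := th Nodes.KindF.isType (sg K 4 m)

theorem classes {K : Type u} [Field K] [Fintype K] (ho : Odd (Fintype.card K)) :
    (∀ u : ↥(chevF4.group K), orderOf u = 2 → IsConj u (zz K 1) ∨ IsConj u (zz K 5)) ∧
    (∀ m < 16, m ≠ 0 → orderOf (zz K m) = 2) ∧
    (∀ m, 0 < m → m < 4 → Nat.card (Subgroup.centralizer ({zz K m} : Set ↥(chevF4.group K))) =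
        Fintype.card K ^ 16 * ((Fintype.card K ^ 2 - 1) * (Fintype.card K ^ 4 - 1) * (Fintype.card K ^ 6 - 1) *
          (Fintype.card K ^ 8 - 1))) ∧
    (∀ m, 4 ≤ m → m < 16 → Nat.card (Subgroup.centralizer ({zz K m} : Set ↥(chevF4.group K))) =
        Fintype.card K ^ 10 * ((Fintype.card K ^ 2 - 1) * (Fintype.card K ^ 4 - 1) * (Fintype.card K ^ 6 - 1) *
          (Fintype.card K ^ 2 - 1))) := by
  obtain ⟨p, hpp, hpc, hp2⟩ := exists_char K ho
  have : Fact p.Prime := ⟨hpp⟩
  have h2 : (2 : K) ≠ 0 := by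
    intro h
    have h3 : p ∣ 2 := (CharP.cast_eq_zero_iff K p 2).1 (by exact_mod_cast h)
    have h4 := (Nat.prime_dvd_prime_iff_eq hpp Nat.prime_two).1 h3
    rw [h4] at hp2
    exact absurd hp2 (by decide)
  have hW : Finite (CoxeterMatrix.F₄).Group := Nat.finite_of_card_ne_zero (by rw [cardW]; norm_num)
  have hc1 : Nat.card (chevF4.diagonalSubgroup K) = (Nat.card K - 1) ^ 4 := by
    have := Cfsg.Agent.S1035.result (F := K) rfl (chevF4, 1) (by simp)
    rw [Nat.card_eq_fintype_card (α := K)]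
    rwa [one_mul] at this
  have hT : Nat.card ↥(TT chevF4 K) = (Nat.card K - 1) ^ 4 := by
    rw [← hc1]
    exact Nat.card_congr (Subgroup.subgroupOfEquivOfLe
      (Cfsg.Agent.ChevalleyStructure.Elts.diagonal_le_group (Nodes.KindF.isType).inList K)).toEquiv
  have hB' : ∀ m < 4, 0 < m → O_TabB4.testBit m = true := by decide +kernel
  have hC' : ∀ m < 16, 4 ≤ m → O_TabC3A1.testBit m = true := by decide +kernel
  have hB : ∀ m, 0 < m → m < 4 → O_TabB4.testBit m = true := fun m h h' => hB' m h' h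
  have hC : ∀ m, 4 ≤ m → m < 16 → O_TabC3A1.testBit m = true := fun m h h' => hC' m h' h
  refine ⟨fun u hu => ?_, fun m hm hm0 => order_sg h2 inj_F4 hm hm0, fun m h0 h4 => ?_, fun m h0 h4 => ?_⟩
  · have hu1 : u * u = 1 := by rw [← pow_two, ← hu, pow_orderOf_eq_one]
    have hu2 : u ≠ 1 := by
      rintro rfl
      rw [orderOf_one] at hu
      omega
    obtain ⟨g, hg⟩ := toral_F4 ho hu1
    obtain ⟨b, hb⟩ := surj_F4 hg
    have hconj : IsConj u (th Nodes.KindF.isType b) := isConj_iff.2 ⟨g, hb.symm⟩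
    have hb2 : b * b = 1 := by
      apply inj_F4
      rw [map_mul, hb]
      have : g * u * g⁻¹ * (g * u * g⁻¹) = g * (u * u) * g⁻¹ := by group
      rw [this, hu1, mul_one, mul_inv_cancel]
    obtain ⟨m, hm', rfl⟩ := exists_sg hb2
    rcases Nat.eq_zero_or_pos m with h0 | h0
    · exfalso
      apply hu2
      subst h0
      rw [sg_zero, map_one] at hconj
      exact isConj_one_left.1 hconj
    · rcases lt_or_ge m 4 with h4 | h4
      · left
        exact hconj.trans ((D_TabB4.conj hcm p (K := K) (hB m h0 h4)).trans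
          (D_TabB4.conj hcm p (K := K) (hB 1 (by norm_num) (by norm_num))).symm)
      · right
        exact hconj.trans ((D_TabC3A1.conj hcm p (K := K) (hC m h4 hm')).trans
          (D_TabC3A1.conj hcm p (K := K) (hC 5 (by norm_num) (by norm_num))).symm)
  · rw [zz, card_centralizer_conj (D_TabB4.conj hcm p (K := K) (hB m h0 h4)),
      D_TabB4.card_cent hcm (K := K) p h2 inj_F4 hT]
    rw [← Nat.card_eq_fintype_card (α := K)]
    show Nat.card K ^ 16 * _ = _
    simp only [List.map_cons, List.map_nil, List.prod_cons, List.prod_nil]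
    ring
  · rw [zz, card_centralizer_conj (D_TabC3A1.conj hcm p (K := K) (hC m h0 h4)),
      D_TabC3A1.card_cent hcm (K := K) p h2 inj_F4 hT]
    rw [← Nat.card_eq_fintype_card (α := K)]
    show Nat.card K ^ 10 * _ = _
    simp only [List.map_cons, List.map_nil, List.prod_cons, List.prod_nil]
    ring

end Cfsg.Agent.H351.IF
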