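import Cfsg.Agent.H351.IF.F4Phi
import Cfsg.Agent.H318.IF.OppF4
import Cfsg.Agent.H209.IF.Kill
import Cfsg.Agent.S0205

/-!
# S5719, the row `F₄(q)`, `q` odd (helper351; helper526: opposite transvections; helper318: `opp25`)

* `f4_odd` : `KillE (chevF4.group F)`.
-/

set_option autoImplicit false

namespace Cfsg.Agent.H351.IF

open Cfsg.Lie Cfsg.Agent.ChevalleyStructure Cfsg.Agent.ChevalleyStructure.Elts
  Cfsg.Agent.OddHalf.NI.ModelChev Cfsg.Agent.H557.SignTorus
  Cfsg.Agent.H934.HeisChev Cfsg.Agent.H934.HeisF4G2 Cfsg.Agent.H255.IFK Cfsg.Agent.H209.Fxy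

open scoped Pointwise

universe u

theorem nonab {K : Type u} [Field K] (h2 : (2 : K) ≠ 0) : ∃ a b : ↥(chevF4.group K), a * b ≠ b * a := by
  obtain ⟨z, hz, hz1⟩ : ∃ z ∈ RG K 30, z ≠ 1 :=
    ⟨_, xe_mem_RG 30 1, fun e => one_ne_zero (xe_eq_one hF4 (by decide) e)⟩
  have D := hd_of (K := K) (α := 30) (L := [27, 28]) (n := 2) rfl (by norm_num) (by decide +kernel) h2
  obtain ⟨y, -, hxy⟩ := D.surj 0 (xe hF4 27 1) (xe_mem_RG 27 1)
    (fun e => one_ne_zero (xe_eq_one hF4 (by decide) e)) z hz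
  refine ⟨xe hF4 27 1, y, fun e => hz1 ?_⟩
  rw [← hxy, e, mul_inv_cancel_right, mul_inv_cancel]

/-- **`Fix A` and an involution in `A` give `A = T`** -/
theorem top_of_Fix {K : Type u} [Field K] [Fintype K] (ho : Odd (Fintype.card K))
    {A : Subgroup ↥(chevF4.group K)} (h : H255.IFK.Fix A) (ht : ∃ t ∈ A, orderOf t = 2) : A = ⊤ := by
  have : Finite ↥(chevF4.group K) := finT
  have h2 := two_ne (K := K) ho
  have hopp : Opp25 K := fun S x y hx hx' hx1 hy hy' hy1 =>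
    H318.IF.opp25 h2 (fun _ _ _ h => Cfsg.Agent.S0205.result h) S hx hx' hx1 hy hy' hy1
  obtain ⟨t, htA, ht2⟩ := ht
  obtain ⟨c, hc⟩ : ∃ c : ↥(chevF4.group K), MulAut.conj c • A = ⊤ := by
    rcases (classes (K := K) ho).1 t ht2 with h1 | h1
    · obtain ⟨c, hc⟩ := isConj_iff.1 h1
      refine ⟨c, top_of_one ho hopp (h.conj c) ?_⟩
      rw [← hc]
      exact conj_mem_conj htA
    · obtain ⟨c, hc⟩ := isConj_iff.1 h1
      refine ⟨c, top_of_five ho hopp (h.conj c) ?_⟩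
      rw [← hc]
      exact conj_mem_conj htA
  rw [eq_top_iff]
  intro x _
  have h3 : c * x * c⁻¹ ∈ MulAut.conj c • A := by rw [hc]; exact Subgroup.mem_top _
  rw [mem_conj] at h3
  have : c⁻¹ * (c * x * c⁻¹) * c = x := by group
  rwa [this] at h3

/-- **the row `F₄(q)`, `q` odd** -/
theorem f4_odd (F : Type) [Field F] [Fintype F] (ho : Odd (Fintype.card F))
    (hs : IsSimpleGroup (chevF4.group F)) : KillE (chevF4.group F) := by
  have : Finite ↥(chevF4.group F) := finT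
  intro A Γ hA ht
  exact hA.ne_top (top_of_Fix ho (fix_of_IF hA (nonab (two_ne ho))) ht)

end Cfsg.Agent.H351.IF
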