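import Cfsg.Agent.H255.IF.Key
import Cfsg.Agent.H847.IF.Abs

/-!
# S5719: subgroups without conjugates of an involution (helper351)

* `PHI M z c` : the subgroups of `M` without `M`-conjugates of `z` have index at least `c` in `M`;
* `phi_step` : from `L` to `M`, with two opposite Heisenberg groups of `M` normalised by `L`.
-/

set_option autoImplicit false

namespace Cfsg.Agent.H351.IF

open Subgroup Cfsg.Agent.H255.IFK

variable {T : Type*} [Group T]

/-- subgroups of `M` without conjugates of `z` have index at least `c` -/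
def PHI (M : Subgroup T) (z : T) (c : ℕ) : Prop :=
  ∀ X : Subgroup T, X ≤ M → (∀ g ∈ M, g * z * g⁻¹ ∉ X) → c ≤ X.relIndex M

theorem PHI.bot (z : T) : PHI ⊥ z 1 := by
  intro X _ _
  rw [Subgroup.relIndex_bot_right]

theorem num_iso {a q m : ℕ} (hq : 0 < q) (h : a ^ 2 * q ≤ q ^ (2 * m + 1) * 1 ^ 2) : a ≤ q ^ m := by
  by_contra hcon
  push Not at hcon
  have h1 := Nat.pow_lt_pow_left hcon (by norm_num : (2 : ℕ) ≠ 0)
  have h2 := Nat.mul_lt_mul_of_pos_right h1 hq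
  have h3 : (q ^ m) ^ 2 * q = q ^ (2 * m + 1) * 1 ^ 2 := by ring
  omega

theorem phi_step [Finite T] {M L : Subgroup T} {z : T} {c q m : ℕ} (hLM : L ≤ M) (hz2 : z * z = 1) (hL : PHI L z c)
    (hq : Odd q) (R Q : Bool → Subgroup T) (hQM : ∀ b, Q b ≤ M) (hsp : ∀ b, Sp (R b) (R b) (Q b))
    (hne : ∀ b, R b ≠ ⊥) (hR : ∀ b, Nat.card (R b) = q) (hQ : ∀ b, Nat.card (Q b) = q ^ (2 * m + 1))
    (hnorm : ∀ b, ∀ l ∈ L, ∀ u ∈ Q b, l * u * l⁻¹ ∈ Q b)
    (hopp : ∀ S : Subgroup T, (∀ b, S ⊓ R b ≠ ⊥) → ∃ g ∈ M, g * z * g⁻¹ ∈ S) :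
    PHI M z (q ^ (m + 1) * c) := by
  intro X hXM hX
  have hq0 : 0 < q := hq.pos
  have h1 : ∃ b, X ⊓ R b = ⊥ := by
    by_contra h
    push Not at h
    obtain ⟨g, hg, hg'⟩ := hopp X h
    exact hX g hg hg'
  obtain ⟨b, hb⟩ := h1
  have h2 := iso (hsp b) (R := X ⊓ Q b) inf_le_right
    (fun h => hne b (le_bot_iff.1 ((le_inf (h.trans inf_le_left) le_rfl).trans hb.le)))
  have h3 : X ⊓ Q b ⊓ R b = ⊥ := by
    rw [eq_bot_iff, ← hb]
    exact inf_le_inf_right _ inf_le_left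
  rw [h3, Subgroup.card_bot, hR, hQ] at h2
  have h4 : Nat.card (X ⊓ Q b : Subgroup T) ≤ q ^ m := num_iso hq0 h2
  have hcQ : Nat.card ((Q b).subgroupOf M) = q ^ (2 * m + 1) := by
    rw [← hQ b]
    exact Nat.card_congr (Subgroup.subgroupOfEquivOfLe (hQM b)).toEquiv
  have hcX : Nat.card (X.subgroupOf M ⊓ (Q b).subgroupOf M : Subgroup M) = Nat.card (X ⊓ Q b : Subgroup T) := by
    have e : (X.subgroupOf M ⊓ (Q b).subgroupOf M : Subgroup M) = (X ⊓ Q b).subgroupOf M := by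
      ext x
      rfl
    rw [e]
    exact Nat.card_congr (Subgroup.subgroupOfEquivOfLe (inf_le_left.trans hXM)).toEquiv
  have h5 := Cfsg.Agent.H847.IF.abs_index (G := M) (L := L) (Subgroup.inclusion hLM) ((Q b).subgroupOf M)
    (X.subgroupOf M) (by rw [hcQ]; exact hq.pow) (fun l u hu => hnorm b l l.2 u hu)
    {x : M | ∃ g ∈ M, g * z * g⁻¹ = (x : T)} ?_ ?_ ?_ c ?_
  · rw [hcQ, hcX] at h5
    have h6 : (X.subgroupOf M).index = X.relIndex M := rfl
    rw [h6] at h5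
    have h7 : q ^ m * (q ^ (m + 1) * c) ≤ q ^ m * X.relIndex M := by
      calc q ^ m * (q ^ (m + 1) * c) = q ^ (2 * m + 1) * c := by ring
        _ ≤ _ := h5
        _ ≤ _ := Nat.mul_le_mul_right _ h4
    exact Nat.le_of_mul_le_mul_left h7 (Nat.pow_pos hq0)
  · rintro x ⟨g, hg, hx⟩
    apply Subtype.ext
    rw [Subgroup.coe_mul, ← hx]
    calc g * z * g⁻¹ * (g * z * g⁻¹) = g * (z * z) * g⁻¹ := by group
      _ = 1 := by rw [hz2]; group
  · rintro y x ⟨g, hg, hx⟩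
    refine ⟨y * g, M.mul_mem y.2 hg, ?_⟩
    rw [Subgroup.coe_mul, Subgroup.coe_mul, Subgroup.coe_inv, ← hx]
    group
  · rintro x ⟨g, hg, hx⟩ hxX
    have h6 : (x : T) ∈ X := hxX
    rw [← hx] at h6
    exact hX g hg h6
  · intro Y hY
    have h6 := hL (Y.map L.subtype) (by
      rintro _ ⟨y, -, rfl⟩
      exact y.2) (by
      rintro g hg ⟨y, hy, hgy⟩
      exact hY y hy ⟨g, hLM hg, hgy.symm⟩)
    have h7 : (Y.map L.subtype).relIndex L = Y.index := by
      unfold Subgroup.relIndex Subgroup.subgroupOf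
      rw [Subgroup.comap_map_eq_self_of_injective L.subtype_injective]
    rwa [h7] at h6

end Cfsg.Agent.H351.IF
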