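import Cfsg.Agent.H351.IF.F4Bfour
import Cfsg.Agent.H351.IF.PhiAbs

/-!
# S5719, `F₄(q)`, `q` odd (helper351): involutions of type `C₃A₁` in `A`

* `LL K l` : the group generated by the root groups in `l`;
* `phi3` : `PHI (LL K l3) (zz K 4) (q ^ 6)`, from `Opp25 K`;
* `top_of_five` : `zz K 5 ∈ A` gives `A = ⊤`.
-/

set_option autoImplicit false

namespace Cfsg.Agent.H351.IF

open Cfsg.Lie Cfsg.Agent.ChevalleyStructure Cfsg.Agent.ChevalleyStructure.Elts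
  Cfsg.Agent.Nodes.RGDChev Cfsg.Agent.KFacts.RgdChevCoord Cfsg.Agent.OddHalf.NI.ModelChev
  Cfsg.Agent.H557.SignTorus Cfsg.Agent.H557
  Cfsg.Agent.H934.HeisChev Cfsg.Agent.H934.HeisF4G2 Cfsg.Agent.H255.IFK Cfsg.Agent.H172.S3G2

open scoped Pointwise

universe u

variable {K : Type u} [Field K]

/-- the group generated by the root groups of the list -/
noncomputable def LL (K : Type u) [Field K] (l : List ℕ) : Subgroup ↥(chevF4.group K) := ⨆ r ∈ l, RG K r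

theorem RG_le_LL {l : List ℕ} {r : ℕ} (hr : r ∈ l) : RG K r ≤ LL K l := le_iSup₂_of_le r hr le_rfl

theorem LL_le {l : List ℕ} {A : Subgroup ↥(chevF4.group K)} (h : ∀ r ∈ l, RG K r ≤ A) : LL K l ≤ A := iSup₂_le h

theorem LL_nil : LL K [] = ⊥ := by
  rw [eq_bot_iff]
  exact LL_le (by simp)

theorem LL_mono {l l' : List ℕ} (h : ∀ r ∈ l, r ∈ l') : LL K l ≤ LL K l' := LL_le fun r hr => RG_le_LL (h r hr)

/-- the root group `r` normalises the group generated by the root groups of `l` -/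
def nmB (r : ℕ) (l : List ℕ) : Bool :=
  l.all fun s => Nat.blt r 48 && Nat.blt s 48 && !(Nat.beq s r) && !(Nat.beq s (chevF4.neg r)) &&
    (chevF4.commTerms r s).all fun t => decide (t.1 ∈ l)

theorem conj_RG {r : ℕ} {l : List ℕ} (h : nmB r l = true) {Q : Subgroup ↥(chevF4.group K)}
    (hQ : ∀ s ∈ l, RG K s ≤ Q) (hQ' : ∀ A : Subgroup ↥(chevF4.group K), (∀ s ∈ l, RG K s ≤ A) → Q ≤ A)
    {x : ↥(chevF4.group K)} (hx : x ∈ RG K r) : ∀ u ∈ Q, x * u * x⁻¹ ∈ Q := by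
  obtain ⟨t, rfl⟩ := hx
  have h1 : Q ≤ Q.comap (MulAut.conj (xe hF4 r t)).toMonoidHom := by
    apply hQ'
    rintro s hs _ ⟨v, rfl⟩
    show MulAut.conj (xe hF4 r t) (xe hF4 s v) ∈ Q
    unfold nmB at h
    simp only [List.all_eq_true, Bool.and_eq_true, Bool.not_eq_true', decide_eq_true_eq] at h
    obtain ⟨⟨⟨⟨hr, hs48⟩, hne⟩, hneg⟩, hct⟩ := h s hs
    have hr' : r < chevF4.nroots := Nat.le_of_ble_eq_true hr
    have hs' : s < chevF4.nroots := Nat.le_of_ble_eq_true hs48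
    have hne' : s ≠ r := Nat.ne_of_beq_eq_false hne
    have hneg' : s ≠ chevF4.neg r := Nat.ne_of_beq_eq_false hneg
    rw [MulAut.conj_apply, conj_gen hF4 hr' hs' hne' hneg' t v]
    refine Q.mul_mem (hQ s hs (xe_mem_RG _ _)) ?_
    unfold wd
    refine Subgroup.list_prod_mem _ fun y hy => ?_
    obtain ⟨p, hp, rfl⟩ := List.mem_map.1 hy
    have hp' : p ∈ (chevF4.commTerms r s).map _ := hp
    obtain ⟨w, hw, rfl⟩ := List.mem_map.1 hp'
    exact hQ _ (hct w hw) (xe_mem_RG _ _)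
  intro u hu
  exact h1 hu

theorem LL_conj {l' l : List ℕ} (h : ∀ r ∈ l', nmB r l = true) {Q : Subgroup ↥(chevF4.group K)}
    (hQ : ∀ s ∈ l, RG K s ≤ Q) (hQ' : ∀ A : Subgroup ↥(chevF4.group K), (∀ s ∈ l, RG K s ≤ A) → Q ≤ A) :
    ∀ x ∈ LL K l', ∀ u ∈ Q, x * u * x⁻¹ ∈ Q := by
  have h1 : LL K l' ≤ Subgroup.normalizer (Q : Set ↥(chevF4.group K)) := by
    apply LL_le
    intro r hr x hx
    rw [Subgroup.mem_normalizer_iff]
    intro u
    refine ⟨fun hu => conj_RG (h r hr) hQ hQ' hx u hu, fun hu => ?_⟩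
    have h2 := conj_RG (h r hr) hQ hQ' ((RG K r).inv_mem hx) _ hu
    have e : x⁻¹ * (x * u * x⁻¹) * x⁻¹⁻¹ = u := by group
    rwa [e] at h2
  intro x hx u hu
  exact (Subgroup.mem_normalizer_iff.1 (h1 hx) u).1 hu

/-! ### the Weyl elements -/

theorem nw_RG' (j : Fin 4) {r : ℕ} (hr : r < 48) {x : ↥(chevF4.group K)}
    (hx : x ∈ RG K (chevF4.reflectRoot j r)) : (nw K j)⁻¹ * x * nw K j ∈ RG K r := by
  obtain ⟨a, rfl⟩ := hx
  obtain ⟨c, hc0, hc⟩ := nact Nodes.KindF.isType (K := K) (i := j) (r := r) hr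
  have h1 := hc (c⁻¹ * a)
  rw [xc_eq hr, xc_eq (Cfsg.Agent.ChevalleyStructure.NPerm.reflectRoot_lt hF4 (i := j) j.2 hr),
    mul_inv_cancel_left₀ hc0] at h1
  refine ⟨c⁻¹ * a, ?_⟩
  show xe hF4 r (c⁻¹ * a) = (nw K j)⁻¹ * xe hF4 (chevF4.reflectRoot j r) a * nw K j
  rw [← h1]
  show _ = (nw K j)⁻¹ * (nw K j * _ * (nw K j)⁻¹) * nw K j
  group

theorem nw_eq (j : Fin 4) : nw K j = xe hF4 (chevF4.simple j) 1 * xe hF4 (chevF4.neg (chevF4.simple j)) (-1⁻¹) *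
    xe hF4 (chevF4.simple j) 1 := by
  apply Subtype.ext
  show nG hF4 (chevF4.simple j) (1 : K) = _
  unfold nG ChevalleyDatum.nWord wordG
  simp only [List.map_cons, List.map_nil, List.prod_cons, List.prod_nil, mul_one, Subgroup.coe_mul, mul_assoc]
  rfl

theorem nw_mem (j : Fin 4) {l : List ℕ} (h1 : chevF4.simple j ∈ l) (h2 : chevF4.neg (chevF4.simple j) ∈ l) :
    nw K j ∈ LL K l := by
  rw [nw_eq]
  exact mul_mem (mul_mem (RG_le_LL h1 (xe_mem_RG _ _)) (RG_le_LL h2 (xe_mem_RG _ _))) (RG_le_LL h1 (xe_mem_RG _ _))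

/-! ### the chain `A₁ < C₂ < C₃` -/

/-- the roots of `A₁` -/
def l1 : List ℕ := [22, 25]
/-- the roots of `C₂` -/
def l2 : List ℕ := [17, 19, 20, 22, 25, 27, 28, 30]
/-- the roots of `C₃` -/
def l3 : List ℕ := [6, 10, 12, 13, 14, 17, 19, 20, 22, 25, 27, 28, 30, 33, 34, 35, 37, 41]

/-- the check of a step -/
def stB (l l' : List ℕ) (n a b : ℕ) (La Lb : List ℕ) : Bool :=
  decide (La.length = n) && decide (Lb.length = n) && hdB a La && hdB b Lb && Nat.blt a 48 && Nat.blt b 48 &&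
  (List.range n).all (fun i => Nat.blt (La.getD i 0) 48) && (List.range n).all (fun i => Nat.blt (Lb.getD i 0) 48) &&
  l.all (fun r => nmB r (a :: La)) && l.all (fun r => nmB r (b :: Lb)) &&
  (a :: La).all (fun r => decide (r ∈ l')) && (b :: Lb).all (fun r => decide (r ∈ l')) &&
  l.all (fun r => decide (r ∈ l'))

theorem getD_mem {L : List ℕ} {i : ℕ} (h : i < L.length) : L.getD i 0 ∈ L := by
  rw [List.getD_eq_getElem _ _ h]
  exact List.getElem_mem h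

theorem hd_gen {α : ℕ} {L : List ℕ} {n : ℕ} (hn : L.length = n) (hα : α < 48) (h : hdB α L = true) (h2 : (2 : K) ≠ 0) :
    (∀ s ∈ α :: L, RG K s ≤ (hd_of (K := K) hn hα h h2).Q) ∧
    ∀ A : Subgroup ↥(chevF4.group K), (∀ s ∈ α :: L, RG K s ≤ A) → (hd_of (K := K) hn hα h h2).Q ≤ A := by
  constructor
  · intro s hs
    rcases List.mem_cons.1 hs with rfl | hs
    · exact HD.zQ _
    · obtain ⟨i, hi, rfl⟩ := List.getElem_of_mem hs
      have h1 := HD.xQ (hd_of (K := K) hn hα h h2) ⟨i, hn ▸ hi⟩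
      have h3 : L.getD i 0 = L[i] := List.getD_eq_getElem _ _ hi
      rw [← h3]
      exact h1
  · intro A hA
    refine HD.Q_le _ (hA α (by simp)) fun i => ?_
    exact hA _ (List.mem_cons_of_mem _ (getD_mem (by rw [hn]; exact i.2)))

variable [Fintype K]

theorem phi_of {l l' : List ℕ} {m a b c : ℕ} {La Lb : List ℕ} (h : stB l l' (2 * m) a b La Lb = true)
    (ho : Odd (Fintype.card K)) (h2 : (2 : K) ≠ 0) (z : ↥(chevF4.group K)) (hz : z * z = 1) (hL : PHI (LL K l) z c)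
    (hopp : ∀ S : Subgroup ↥(chevF4.group K), (∃ x ∈ S, x ∈ RG K a ∧ x ≠ 1) → (∃ x ∈ S, x ∈ RG K b ∧ x ≠ 1) →
      ∃ g ∈ LL K l', g * z * g⁻¹ ∈ S) : PHI (LL K l') z (Fintype.card K ^ (m + 1) * c) := by
  have : Finite ↥(chevF4.group K) := finT
  unfold stB at h
  simp only [Bool.and_eq_true, List.all_eq_true, decide_eq_true_eq, List.mem_range] at h
  obtain ⟨⟨⟨⟨⟨⟨⟨⟨⟨⟨⟨⟨hna, hnb⟩, hda⟩, hdb⟩, ha⟩, hb⟩, hga⟩, hgb⟩, hNa⟩, hNb⟩, hMa⟩, hMb⟩, hll⟩ := h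
  have ha' : a < 48 := Nat.le_of_ble_eq_true ha
  have hb' : b < 48 := Nat.le_of_ble_eq_true hb
  set Da := hd_of (K := K) hna ha' hda h2
  set Db := hd_of (K := K) hnb hb' hdb h2
  obtain ⟨ga1, ga2⟩ := hd_gen (K := K) hna ha' hda h2
  obtain ⟨gb1, gb2⟩ := hd_gen (K := K) hnb hb' hdb h2
  have hex : ∀ S : Subgroup ↥(chevF4.group K), ∀ r, S ⊓ RG K r ≠ ⊥ → ∃ x ∈ S, x ∈ RG K r ∧ x ≠ 1 := by
    intro S r hS
    obtain ⟨⟨x, hx⟩, hx1⟩ := Subgroup.ne_bot_iff_exists_ne_one.1 hS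
    exact ⟨x, hx.1, hx.2, fun e => hx1 (Subtype.ext e)⟩
  have hnb' : ∀ r < 48, RG K r ≠ ⊥ := by
    intro r hr e
    have h1 : xe hF4 r (1 : K) ∈ RG K r := xe_mem_RG _ _
    rw [e, Subgroup.mem_bot] at h1
    exact one_ne_zero (xe_eq_one hF4 hr h1)
  refine phi_step (R := fun i => cond i (RG K a) (RG K b)) (Q := fun i => cond i Da.Q Db.Q) (LL_mono hll) hz hL ho
    ?_ ?_ ?_ ?_ ?_ ?_ ?_
  · rintro (_ | _)
    · exact gb2 _ fun s hs => RG_le_LL (hMb s hs)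
    · exact ga2 _ fun s hs => RG_le_LL (hMa s hs)
  · rintro (_ | _)
    · exact Db.sp
    · exact Da.sp
  · rintro (_ | _)
    · exact hnb' b hb'
    · exact hnb' a ha'
  · rintro (_ | _)
    · exact (card_RG hb').trans Nat.card_eq_fintype_card
    · exact (card_RG ha').trans Nat.card_eq_fintype_card
  · rintro (_ | _)
    · show Nat.card Db.Q = _
      rw [hd_card hnb hb' (fun i hi => Nat.le_of_ble_eq_true (hgb i hi)) hdb h2, Nat.card_eq_fintype_card]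
    · show Nat.card Da.Q = _
      rw [hd_card hna ha' (fun i hi => Nat.le_of_ble_eq_true (hga i hi)) hda h2, Nat.card_eq_fintype_card]
  · rintro (_ | _)
    · exact LL_conj hNb gb1 gb2
    · exact LL_conj hNa ga1 ga2
  · intro S hS
    exact hopp S (hex S a (hS true)) (hex S b (hS false))

theorem st1 : stB [] l1 (2 * 0) 25 22 [] [] = true := by decide +kernel

theorem st2 : stB l1 l2 (2 * 1) 30 17 [27, 28] [19, 20] = true := by decide +kernel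

theorem st3 : stB l2 l3 (2 * 2) 41 6 [33, 34, 35, 37] [10, 12, 13, 14] = true := by decide +kernel

theorem two_ne (ho : Odd (Fintype.card K)) : (2 : K) ≠ 0 := by
  intro h
  have h3 := FiniteField.even_card_of_char_two (F := K) (by
    have : ringChar K ∣ 2 := by
      rw [← CharP.cast_eq_zero_iff K (ringChar K) 2]
      exact_mod_cast h
    rcases (Nat.dvd_prime Nat.prime_two).1 this with h4 | h4
    · exact absurd h4 (CharP.ringChar_ne_one)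
    · exact h4)
  exact (Nat.not_even_iff_odd.2 ho) (Nat.even_iff.2 h3)

omit [Fintype K] in
theorem zz_sq (m : ℕ) : zz K m * zz K m = 1 := by
  unfold zz
  rw [← map_mul]
  have : sg K 4 m * sg K 4 m = 1 := by
    funext i
    rw [Pi.mul_apply, Pi.one_apply]
    unfold sg
    by_cases h1 : m.testBit i = true <;> simp [h1]
  rw [this, map_one]

/-- **subgroups of `C₃(q)` without involutions conjugate to `zz K 4` have index at least `q ^ 6`** -/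
theorem phi3 (ho : Odd (Fintype.card K)) (hopp : Opp25 K) :
    PHI (LL K l3) (zz K 4) (Fintype.card K ^ 6) := by
  have h2 := two_ne (K := K) ho
  have e25 : chevF4.reflectRoot ((1 : Fin 4) : ℕ) 25 = 30 := by decide +kernel
  have e22 : chevF4.reflectRoot ((1 : Fin 4) : ℕ) 22 = 17 := by decide +kernel
  have e30 : chevF4.reflectRoot ((0 : Fin 4) : ℕ) 30 = 41 := by decide +kernel
  have e17 : chevF4.reflectRoot ((0 : Fin 4) : ℕ) 17 = 6 := by decide +kernel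
  have hb : PHI (LL K []) (zz K 4) 1 := by
    rw [LL_nil]
    exact PHI.bot _
  have k1 : ∀ S : Subgroup ↥(chevF4.group K), (∃ x ∈ S, x ∈ RG K 25 ∧ x ≠ 1) → (∃ x ∈ S, x ∈ RG K 22 ∧ x ≠ 1) →
      zz K 4 ∈ S := by
    rintro S ⟨x, hx, hx', hx1⟩ ⟨y, hy, hy', hy1⟩
    exact hopp S x y hx hx' hx1 hy hy' hy1
  have hcj : ∀ (n : ↥(chevF4.group K)) (S : Subgroup ↥(chevF4.group K)) (r s : ℕ),
      (∀ x ∈ RG K s, n⁻¹ * x * n ∈ RG K r) → (∃ x ∈ S, x ∈ RG K s ∧ x ≠ 1) →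
      ∃ x ∈ MulAut.conj n⁻¹ • S, x ∈ RG K r ∧ x ≠ 1 := by
    rintro n S r s hn ⟨x, hx, hx', hx1⟩
    refine ⟨n⁻¹ * x * n, ?_, hn x hx', fun e => hx1 ?_⟩
    · rw [mem_conj]
      have : n⁻¹⁻¹ * (n⁻¹ * x * n) * n⁻¹ = x := by group
      rwa [this]
    · have : x = n * (n⁻¹ * x * n) * n⁻¹ := by group
      rw [this, e]; group
  have k2 : ∀ S : Subgroup ↥(chevF4.group K), (∃ x ∈ S, x ∈ RG K 30 ∧ x ≠ 1) → (∃ x ∈ S, x ∈ RG K 17 ∧ x ≠ 1) →
      nw K 1 * zz K 4 * (nw K 1)⁻¹ ∈ S := by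
    intro S h1 h3
    have h4 := k1 (MulAut.conj (nw K 1)⁻¹ • S)
      (hcj _ S 25 30 (fun x hx => nw_RG' 1 (by norm_num) (by rw [e25]; exact hx)) h1)
      (hcj _ S 22 17 (fun x hx => nw_RG' 1 (by norm_num) (by rw [e22]; exact hx)) h3)
    rwa [mem_conj, inv_inv] at h4
  have k3 : ∀ S : Subgroup ↥(chevF4.group K), (∃ x ∈ S, x ∈ RG K 41 ∧ x ≠ 1) → (∃ x ∈ S, x ∈ RG K 6 ∧ x ≠ 1) →
      (nw K 0 * nw K 1) * zz K 4 * (nw K 0 * nw K 1)⁻¹ ∈ S := by
    intro S h1 h3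
    have h4 := k2 (MulAut.conj (nw K 0)⁻¹ • S)
      (hcj _ S 30 41 (fun x hx => nw_RG' 0 (by norm_num) (by rw [e30]; exact hx)) h1)
      (hcj _ S 17 6 (fun x hx => nw_RG' 0 (by norm_num) (by rw [e17]; exact hx)) h3)
    rw [mem_conj, inv_inv] at h4
    have : nw K 0 * (nw K 1 * zz K 4 * (nw K 1)⁻¹) * (nw K 0)⁻¹ =
      (nw K 0 * nw K 1) * zz K 4 * (nw K 0 * nw K 1)⁻¹ := by group
    rwa [this] at h4
  have p1 := phi_of (m := 0) st1 ho h2 (zz K 4) (zz_sq 4) hb fun S h1 h3 => ⟨1, one_mem _, by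
    rw [one_mul, inv_one, mul_one]; exact k1 S h1 h3⟩
  have p2 := phi_of (m := 1) st2 ho h2 (zz K 4) (zz_sq 4) p1 fun S h1 h3 => ⟨nw K 1, nw_mem 1 (by decide +kernel)
    (by decide +kernel), k2 S h1 h3⟩
  have p3 := phi_of (m := 2) st3 ho h2 (zz K 4) (zz_sq 4) p2 fun S h1 h3 => ⟨nw K 0 * nw K 1,
    mul_mem (nw_mem 0 (by decide +kernel) (by decide +kernel)) (nw_mem 1 (by decide +kernel) (by decide +kernel)),
    k3 S h1 h3⟩
  have e : Fintype.card K ^ (2 + 1) * (Fintype.card K ^ (1 + 1) * (Fintype.card K ^ (0 + 1) * 1)) =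
      Fintype.card K ^ 6 := by ring
  rwa [e] at p3

theorem num_z {q f : ℕ} (hq : 2 ≤ q)
    (h : f ^ 5 * (q ^ 10 * ((q ^ 2 - 1) * (q ^ 4 - 1) * (q ^ 6 - 1) * (q ^ 2 - 1))) <
      q ^ 24 * (q ^ 2 - 1) * (q ^ 6 - 1) * (q ^ 8 - 1) * (q ^ 12 - 1)) : f < q ^ 6 := by
  by_contra hf
  have hf' : q ^ 6 ≤ f := not_lt.1 hf
  have h1 : (q ^ 6) ^ 5 ≤ f ^ 5 := Nat.pow_le_pow_left hf' 5
  have h2 : 3 ≤ q ^ 2 - 1 := by
    have : 2 ^ 2 ≤ q ^ 2 := Nat.pow_le_pow_left hq 2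
    omega
  have h4 : q ^ 4 ≤ (q ^ 2 - 1) * (q ^ 4 - 1) := by
    have h3 : 2 ^ 4 ≤ q ^ 4 := Nat.pow_le_pow_left hq 4
    calc q ^ 4 ≤ 3 * (q ^ 4 - 1) := by omega
      _ ≤ _ := Nat.mul_le_mul_right _ h2
  have h8 : q ^ 8 - 1 ≤ q ^ 8 := Nat.sub_le _ _
  have h12 : q ^ 12 - 1 ≤ q ^ 12 := Nat.sub_le _ _
  set a := q ^ 2 - 1
  set b := q ^ 6 - 1
  set d := q ^ 4 - 1
  have h5 : (q ^ 6) ^ 5 * (q ^ 10 * (a * d * b * a)) ≤ f ^ 5 * (q ^ 10 * (a * d * b * a)) := Nat.mul_le_mul_right _ h1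
  have h6 := lt_of_le_of_lt h5 h
  have h7 : q ^ 24 * a * b * (q ^ 8 - 1) * (q ^ 12 - 1) ≤ q ^ 24 * a * b * q ^ 8 * q ^ 12 :=
    Nat.mul_le_mul (Nat.mul_le_mul_left _ h8) h12
  have h9 : q ^ 24 * a * b * q ^ 8 * q ^ 12 ≤ (q ^ 6) ^ 5 * (q ^ 10 * (a * d * b * a)) := by
    calc q ^ 24 * a * b * q ^ 8 * q ^ 12 = q ^ 40 * (a * b) * q ^ 4 := by ring
      _ ≤ q ^ 40 * (a * b) * (a * d) := Nat.mul_le_mul_left _ h4
      _ = _ := by ring
  omega

theorem l3_comm : ∀ r ∈ l3, pzB 5 r = true := by decide +kernel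

/-- **an involution of type `C₃A₁` in `A` gives `A = T`** -/
theorem top_of_five (ho : Odd (Fintype.card K)) (hopp : Opp25 K) {A : Subgroup ↥(chevF4.group K)}
    (h : H255.IFK.Fix A) (hs : zz K 5 ∈ A) : A = ⊤ := by
  have : Finite ↥(chevF4.group K) := finT
  have hq : 2 ≤ Fintype.card K := Fintype.one_lt_card
  obtain ⟨-, hord, -, hcard⟩ := classes (K := K) ho
  obtain ⟨f, hf, hf5⟩ := h _ hs (hord 5 (by norm_num) (by norm_num))
  have h1 : 0 < {u : ↥(chevF4.group K) | u ∈ A ∧ IsConj (zz K 5) u}.ncard :=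
    (Set.ncard_pos (Set.toFinite _)).2 ⟨zz K 5, hs, IsConj.refl _⟩
  have hf6 : f ^ 5 < (Subgroup.centralizer ({zz K 5} : Set ↥(chevF4.group K))).index :=
    lt_of_le_of_lt (Nat.le_mul_of_pos_right _ h1) hf5
  have hfq : f < Fintype.card K ^ 6 := by
    refine num_z hq ?_
    have h3 := (Subgroup.centralizer ({zz K 5} : Set ↥(chevF4.group K))).index_mul_card
    rw [hcard 5 (by norm_num) (by norm_num), Cfsg.Agent.S1062.result rfl] at h3
    rw [← h3]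
    refine Nat.mul_lt_mul_of_pos_right hf6 ?_
    rw [← hcard 5 (by norm_num) (by norm_num)]
    exact Nat.card_pos
  have hL : LL K l3 ≤ Subgroup.centralizer ({zz K 5} : Set ↥(chevF4.group K)) := by
    apply LL_le
    intro r hr x hx
    rw [Subgroup.mem_centralizer_singleton_iff]
    exact (zz_comm (l3_comm r hr) hx).symm
  have h3 := hf _ hL
  obtain ⟨g, hg, hgA⟩ : ∃ g ∈ LL K l3, g * zz K 4 * g⁻¹ ∈ A := by
    by_contra hcon
    push Not at hcon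
    have h4 := phi3 ho hopp (A ⊓ LL K l3) inf_le_right fun g hg hg' => hcon g hg hg'.1
    rw [Subgroup.inf_relIndex_right] at h4
    omega
  have h5 : g * zz K 1 * g⁻¹ ∈ A := by
    have h6 : zz K 5 * g = g * zz K 5 := (Subgroup.mem_centralizer_singleton_iff.1 (hL hg)).symm
    have h7 : g * zz K 1 * g⁻¹ = zz K 5 * (g * zz K 4 * g⁻¹) := by
      rw [← zz_mul (K := K) 5 4 1 (by decide), ← mul_assoc, ← mul_assoc, ← mul_assoc, h6]
    rw [h7]
    exact A.mul_mem hs hgA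
  have h6 := top_of_one ho hopp (h.conj g⁻¹) (by
    rw [mem_conj, inv_inv]
    exact h5)
  rw [eq_top_iff]
  intro x _
  have h7 : g⁻¹ * x * g ∈ MulAut.conj g⁻¹ • A := by rw [h6]; exact Subgroup.mem_top _
  rw [mem_conj, inv_inv] at h7
  have : g * (g⁻¹ * x * g) * g⁻¹ = x := by group
  rwa [this] at h7

end Cfsg.Agent.H351.IF
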